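import Cfsg.Agent.H50.RG.LStmts

/-!
# S5714, layer L: the small pieces `L04`, `L09`, `L12`
-/

set_option autoImplicit false
set_option linter.unusedSectionVars false

namespace Cfsg.Agent.H50.RG

open Module Cfsg.Agent.H847.Bs
open Cfsg.Agent.H440.Bs (perp mem_perp mem_perp' finrank_perp)

theorem l12 : L12 := by
  intro F V _ _ _ _ _ e M he hlt y s hs
  rw [Finset.card_le_one]
  intro A hA A' hA'
  by_contra hne
  have h1 := hs A hA
  have h2 := hs A' hA'
  have hdis : A ⊓ A' = ⊥ := by
    rcases h1.irr.min (A ⊓ A') inf_le_left (fun v hv => ⟨h1.irr.inv v hv.1, h2.irr.inv v hv.2⟩) with h | h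
    · exact h
    · exfalso
      apply hne
      refine Submodule.eq_of_le_of_finrank_eq (inf_eq_left.1 h) (by rw [h1.dim, h2.dim])
  have hd : finrank F ↥(A ⊔ A') = 2 * e := by
    have h := Submodule.finrank_sup_add_finrank_inf_eq A A'
    rw [hdis, finrank_bot, h1.dim, h2.dim] at h
    omega
  refine h1.no (A ⊔ A') ?_ ?_ ?_ ?_ ?_
  · unfold Prp
    omega
  · intro v hv
    obtain ⟨a, ha, b, hb, rfl⟩ := Submodule.mem_sup.1 hv
    rw [map_add]
    exact Submodule.add_mem_sup (h1.irr.inv a ha) (h2.irr.inv b hb)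
  · refine lt_of_le_of_ne le_sup_left fun h => ?_
    rw [← h, h1.dim] at hd
    omega
  · intro C hC hAC hCB
    rcases h2.irr.min (A' ⊓ C) inf_le_left (fun v hv => ⟨h2.irr.inv v hv.1, hC v hv.2⟩) with h | h
    · left
      refine le_antisymm ?_ hAC
      intro v hv
      obtain ⟨a, ha, b, hb, rfl⟩ := Submodule.mem_sup.1 (hCB hv)
      have hb' : b ∈ A' ⊓ C := ⟨hb, by
        have := C.sub_mem hv (hAC ha)
        rwa [add_sub_cancel_left] at this⟩
      rw [h, Submodule.mem_bot] at hb'
      rw [hb', add_zero]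
      exact ha
    · right
      exact le_antisymm hCB (sup_le hAC (inf_eq_left.1 h))
  · rw [hd]
    exact Dvd.intro_left 2 rfl

theorem l09 : L09 := by
  intro F V _ _ _ _ _ Φ hN y hy A A' hA hA' hi hi' hne
  -- one of the two is orthogonal to the other
  have key : ∀ X Y : Submodule F V, Irr y X → Irr y Y → (∀ x ∈ X, ∀ z ∈ Y, Φ.B x z = 0) ∨ finrank F X ≤ finrank F Y := by
    intro X Y hX hY
    have hinv : Inv y (X ⊓ perp Φ Y) := by
      intro v hv
      refine ⟨hX.inv v hv.1, fun z hz => ?_⟩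
      -- `y` maps `Y` onto `Y`
      have hsurj : ∃ z' ∈ Y, y z' = z := by
        have h1 : Y.map (y : V →ₗ[F] V) ≤ Y := by
          rintro _ ⟨w, hw, rfl⟩
          exact hY.inv w hw
        have h2 : Y.map (y : V →ₗ[F] V) = Y := Submodule.eq_of_le_of_finrank_eq h1 (LinearEquiv.finrank_map_eq y Y)
        rw [← h2] at hz
        obtain ⟨z', hz', e⟩ := hz
        exact ⟨z', hz', e⟩
      obtain ⟨z', hz', rfl⟩ := hsurj
      rw [hy.1]
      exact hv.2 z' hz'
    rcases hX.min _ inf_le_left hinv with h | h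
    · right
      have h1 := Submodule.finrank_sup_add_finrank_inf_eq X (perp Φ Y)
      have h2 := finrank_perp Φ hN Y
      have h3 := Submodule.finrank_le (X ⊔ perp Φ Y)
      rw [h, finrank_bot] at h1
      omega
    · left
      intro x hx z hz
      exact (inf_eq_left.1 h hx) z hz
  have horth : ∀ x ∈ A, ∀ z ∈ A', Φ.B x z = 0 := by
    rcases key A A' hi hi' with h | h
    · exact h
    · rcases key A' A hi' hi with h' | h'
      · exact fun x hx z hz => Φ.refl _ _ (h' z hz x hx)
      · exact absurd (le_antisymm h h') hne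
  constructor
  · intro x hx z hz
    obtain ⟨a, ha, b, hb, rfl⟩ := Submodule.mem_sup.1 hx
    obtain ⟨c, hc, d, hd, rfl⟩ := Submodule.mem_sup.1 hz
    rw [Φ.add_left, Φ.add_right, Φ.add_right, hA.1 a ha c hc, horth a ha d hd, hA'.1 b hb d hd,
      Φ.refl _ _ (horth c hc b hb)]
    simp
  · intro x hx
    obtain ⟨a, ha, b, hb, rfl⟩ := Submodule.mem_sup.1 hx
    rw [Φ.q_add _ _ (horth a ha b hb), hA.2 a ha, hA'.2 b hb, add_zero]

theorem sumExtend_inl {F V ι : Type*} [Field F] [AddCommGroup V] [Module F V] {v : ι → V}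
    (hs : LinearIndependent F v) (i : ι) : Basis.sumExtend hs (Sum.inl i) = v i := by
  classical
  unfold Basis.sumExtend
  rw [Basis.reindex_apply, Basis.extend_apply_self]
  rfl

theorem l04 : L04 := by
  classical
  intro F V _ _ _ _ _ hn k hk b b' hb hb' _ _
  let B := Basis.sumExtend hb
  let B' := Basis.sumExtend hb'
  have hBf : Finite (Fin k ⊕ Basis.sumExtendIndex hb) := Module.Finite.finite_basis B
  have hBf' : Finite (Fin k ⊕ Basis.sumExtendIndex hb') := Module.Finite.finite_basis B'
  have hJ : Finite (Basis.sumExtendIndex hb) := Finite.of_injective (Sum.inr : _ → Fin k ⊕ Basis.sumExtendIndex hb)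
    Sum.inr_injective
  have hJ' : Finite (Basis.sumExtendIndex hb') := Finite.of_injective
    (Sum.inr : _ → Fin k ⊕ Basis.sumExtendIndex hb') Sum.inr_injective
  have := Fintype.ofFinite (Basis.sumExtendIndex hb)
  have := Fintype.ofFinite (Basis.sumExtendIndex hb')
  have hc : finrank F V = k + Fintype.card (Basis.sumExtendIndex hb) := by
    rw [Module.finrank_eq_card_basis B, Fintype.card_sum, Fintype.card_fin]
  have hc' : finrank F V = k + Fintype.card (Basis.sumExtendIndex hb') := by
    rw [Module.finrank_eq_card_basis B', Fintype.card_sum, Fintype.card_fin]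
  have hBb : ∀ i, B (Sum.inl i) = b i := fun i => sumExtend_inl hb i
  have hBb' : ∀ i, B' (Sum.inl i) = b' i := fun i => sumExtend_inl hb' i
  obtain ⟨e⟩ : Nonempty (Basis.sumExtendIndex hb ≃ Basis.sumExtendIndex hb') :=
    ⟨Fintype.equivOfCardEq (by omega)⟩
  let g : V ≃ₗ[F] V := B.equiv B' (Equiv.sumCongr (Equiv.refl _) e)
  have hg : ∀ i, g (b i) = b' i := by
    intro i
    rw [← hBb, ← hBb']
    exact B.equiv_apply _ _ _
  have hpos : 0 < Fintype.card (Basis.sumExtendIndex hb) := by omega
  obtain ⟨j₀⟩ : Nonempty (Basis.sumExtendIndex hb) := Fintype.card_pos_iff.1 hpos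
  let d : Fˣ := LinearEquiv.det g
  let w : Fin k ⊕ Basis.sumExtendIndex hb → Fˣ := Function.update 1 (Sum.inr j₀) d⁻¹
  let s : V ≃ₗ[F] V := B.equiv (B.unitsSMul w) (Equiv.refl _)
  have hs : ∀ i, s (B i) = (w i : F) • B i := by
    intro i
    rw [show s (B i) = (B.unitsSMul w) i from B.equiv_apply _ _ _, Basis.unitsSMul_apply]
    rfl
  have hdet : LinearMap.det (s : V →ₗ[F] V) = ((d⁻¹ : Fˣ) : F) := by
    rw [← LinearMap.det_toMatrix B]
    have h1 : LinearMap.toMatrix B B (s : V →ₗ[F] V) = Matrix.diagonal fun i => (w i : F) := by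
      ext i j
      rw [LinearMap.toMatrix_apply]
      show B.repr (s (B j)) i = _
      rw [hs, map_smul, Basis.repr_self, Finsupp.smul_single, smul_eq_mul, mul_one, Matrix.diagonal_apply,
        Finsupp.single_apply]
      by_cases h : j = i
      · subst h
        simp
      · rw [if_neg h, if_neg fun h' => h h'.symm]
    rw [h1, Matrix.det_diagonal, Finset.prod_eq_single (Sum.inr j₀)]
    · simp [w]
    · intro i _ hi
      simp [w, hi]
    · intro h
      exact absurd (Finset.mem_univ _) h
  refine ⟨g * s, ?_, fun i => ?_⟩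
  · show LinearMap.det ((g : V →ₗ[F] V) ∘ₗ (s : V →ₗ[F] V)) = 1
    rw [LinearMap.det_comp, hdet]
    have : LinearMap.det (g : V →ₗ[F] V) = (d : F) := (LinearEquiv.coe_det g).symm
    rw [this]
    exact Units.mul_inv d
  · show g (s (b i)) = b' i
    rw [← hBb i, hs, hBb]
    have : w (Sum.inl i) = 1 := by simp [w]
    rw [this, Units.val_one, one_smul, hg]

end Cfsg.Agent.H50.RG
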