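import Cfsg.Agent.H50.RG.Stat3

/-!
# S5714, layer L: the second moment argument (`l01 : L01`)
-/

set_option autoImplicit false
set_option linter.unusedSectionVars false

namespace Cfsg.Agent.H50.RG

open Module Cfsg.Agent.H847.Bs

/-- second moment: `R ≥ 0` with mean `≥ (1 - η) S` and second moment `≤ 2 S + S²` -/
theorem second_moment {ι : Type*} [Fintype ι] (R : ι → ℕ) {S η : ℝ} (hS : 0 ≤ S) (hη0 : 0 ≤ η) (hη1 : η ≤ 1)
    (h1 : (Fintype.card ι : ℝ) * ((1 - η) * S) ≤ ∑ i, (R i : ℝ))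
    (h2 : ∑ i, (R i : ℝ) ^ 2 ≤ Fintype.card ι * (2 * S + S ^ 2)) :
    (Nat.card {i // R i = 0} : ℝ) * ((1 - η) * S) ^ 2 ≤ Fintype.card ι * (2 * S + 2 * η * S ^ 2) := by
  classical
  set N : ℝ := (Fintype.card ι : ℝ) with hN
  set n₀ : ℝ := (Nat.card {i // R i = 0} : ℝ) with hn₀
  have hN0 : 0 ≤ N := Nat.cast_nonneg _
  have hn0 : 0 ≤ n₀ := Nat.cast_nonneg _
  have hle : n₀ ≤ N := by
    rw [hn₀, hN, ← Nat.card_eq_fintype_card]
    exact_mod_cast Nat.card_le_card_of_injective _ Subtype.val_injective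
  -- Cauchy-Schwarz
  have h3 : (∑ i, (R i : ℝ)) ^ 2 ≤ (N - n₀) * ∑ i, (R i : ℝ) ^ 2 := by
    have h4 : ∑ i, (R i : ℝ) = ∑ i ∈ Finset.univ.filter (fun i => R i ≠ 0), 1 * (R i : ℝ) := by
      rw [Finset.sum_filter]
      refine Finset.sum_congr rfl fun i _ => ?_
      by_cases h : R i = 0
      · simp [h]
      · simp [h]
    have h5 := Finset.sum_mul_sq_le_sq_mul_sq (Finset.univ.filter (fun i => R i ≠ 0)) (fun _ => (1 : ℝ))
      (fun i => (R i : ℝ))
    rw [← h4] at h5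
    refine h5.trans (mul_le_mul ?_ ?_ (Finset.sum_nonneg fun i _ => sq_nonneg _) (by linarith))
    · have h6 : ((Finset.univ.filter (fun i => R i ≠ 0)).card : ℝ) + n₀ = N := by
        have h7 : Nat.card {i // R i = 0} = (Finset.univ.filter (fun i => R i = 0)).card := by
          rw [Nat.card_eq_fintype_card, Fintype.card_subtype]
        have h7' := Finset.card_filter_add_card_filter_not (s := (Finset.univ : Finset ι)) (fun i => R i = 0)
        rw [hn₀, h7, hN, ← Finset.card_univ, ← h7']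
        push_cast
        ring
      simp only [one_pow, Finset.sum_const, nsmul_eq_mul, mul_one]
      linarith
    · exact Finset.sum_le_sum_of_subset_of_nonneg (Finset.filter_subset _ _) fun i _ _ => sq_nonneg _
  have h8 : (N * ((1 - η) * S)) ^ 2 ≤ (N - n₀) * (N * (2 * S + S ^ 2)) := by
    have h9 : 0 ≤ N * ((1 - η) * S) := mul_nonneg hN0 (mul_nonneg (by linarith) hS)
    calc (N * ((1 - η) * S)) ^ 2 ≤ (∑ i, (R i : ℝ)) ^ 2 := pow_le_pow_left₀ h9 h1 2
      _ ≤ (N - n₀) * ∑ i, (R i : ℝ) ^ 2 := h3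
      _ ≤ _ := mul_le_mul_of_nonneg_left h2 (by linarith)
  rcases hN0.eq_or_lt with h0 | h0
  · have h9 : n₀ = 0 := le_antisymm (by rw [h0]; exact hle) hn0
    rw [h9, ← h0]
    simp
  have h10 : N * ((1 - η) * S) ^ 2 ≤ (N - n₀) * (2 * S + S ^ 2) := by
    have : N * (N * ((1 - η) * S) ^ 2) ≤ N * ((N - n₀) * (2 * S + S ^ 2)) := by nlinarith
    exact le_of_mul_le_mul_left this h0
  have h11 : ((1 - η) * S) ^ 2 ≤ 2 * S + S ^ 2 := by
    have h12 : (1 - η) * S ≤ S := by nlinarith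
    have h13 : 0 ≤ (1 - η) * S := mul_nonneg (by linarith) hS
    nlinarith
  have h14 : n₀ * ((1 - η) * S) ^ 2 ≤ n₀ * (2 * S + S ^ 2) := mul_le_mul_of_nonneg_left h11 hn0
  have h15 : 0 ≤ N * (η ^ 2 * S ^ 2) := by positivity
  nlinarith

theorem l01 : L01 := by
  intro F V _ _ _ _ _ G TS k₀ M I x η hh hFT hex hT hI hH1 hH2 hH3 hirr hx hη0 hη hη1
  classical
  have : Finite V := Module.finite_of_finite F
  have : Finite (V ≃ₗ[F] V) := finite_equiv
  have := Fintype.ofFinite G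
  have hG0 : (0 : ℝ) < Nat.card G := by exact_mod_cast Nat.card_pos
  -- the sets
  let P : (e : ℕ) → Set ((Fin e → F) ≃ₗ[F] (Fin e → F)) := fun e => PP F (Fin e → F) e M
  let a : ℕ → G → ℕ := fun e y => Nat.card (AA TS (y : V ≃ₗ[F] V) (P e))
  let gd : ℕ → G → Set (Submodule F V) := fun e y => {A | Gd TS e M (y : V ≃ₗ[F] V) A}
  have hfin : Finite (Submodule F V) :=
    Finite.of_injective (fun A : Submodule F V => (A : Set V)) SetLike.coe_injective
  have hmem : ∀ (e : ℕ) (y : G) (A : Submodule F V), A ∈ AA TS (y : V ≃ₗ[F] V) (P e) ↔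
      TS A ∧ finrank F A = e ∧ Irr (y : V ≃ₗ[F] V) A ∧ BigOn e M (y : V ≃ₗ[F] V) A :=
    fun e y A => mem_AA_iff (by simp)
  have hsub : ∀ e (y : G), gd e y ⊆ AA TS (y : V ≃ₗ[F] V) (P e) := fun e y A hA =>
    (hmem e y A).2 ⟨hA.ts, hA.dim, hA.irr, hA.big⟩
  have hgl : ∀ e, (0 : ℝ) < Nat.card ((Fin e → F) ≃ₗ[F] (Fin e → F)) := fun e => by exact_mod_cast Nat.card_pos
  have hxe : ∀ e ∈ I, x e * Nat.card ((Fin e → F) ≃ₗ[F] (Fin e → F)) = Nat.card (P e) := by
    intro e he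
    have h1 := hx e he
    rw [card_PP, card_GLX] at h1
    exact h1
  have hx0 : ∀ e ∈ I, 0 ≤ x e := by
    intro e he
    by_contra h
    push Not at h
    have h1 := hxe e he
    have h2 : x e * Nat.card ((Fin e → F) ≃ₗ[F] (Fin e → F)) < 0 := mul_neg_of_neg_of_pos h (hgl e)
    rw [h1] at h2
    exact absurd (Nat.cast_nonneg (α := ℝ) (Nat.card (P e))) (not_le.2 h2)
  -- first moments
  have hfr : ∀ {X : Type} [AddCommGroup X] [Module F X] [FiniteDimensional F X], finrank F X ≤ k₀ →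
      Nonempty (Fr TS X) := fun h => exists_fr hh hex h
  have hfirst : ∀ e ∈ I, (∑ y : G, (a e y : ℝ)) = Nat.card G * x e := by
    intro e he
    have h1 := sum_AA hFT (X := Fin e → F) (by simp; have := (hI e he).2; omega) hT
      (hfr (by simp; have := (hI e he).2; omega)) (cj_PP (F := F) (X := Fin e → F) e M)
    have h2 : ((∑ y : G, (a e y : ℝ))) * Nat.card ((Fin e → F) ≃ₗ[F] (Fin e → F)) =
        (Nat.card G * x e) * Nat.card ((Fin e → F) ≃ₗ[F] (Fin e → F)) := by
      rw [mul_assoc, hxe e he]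
      exact_mod_cast h1
    exact mul_right_cancel₀ (hgl e).ne' h2
  -- mixed moments
  have hcross : ∀ e ∈ I, ∀ e' ∈ I, e ≠ e' → (∑ y : G, (a e y : ℝ) * a e' y) ≤ Nat.card G * (x e * x e') := by
    intro e he e' he' hne
    have h1 := cross hFT (X := Fin e → F) (X' := Fin e' → F)
      (by simp; have := (hI e he).2; have := (hI e' he').2; omega) hT
      (hfr (by rw [Module.finrank_prod]; simp; have := (hI e he).2; have := (hI e' he').2; omega))
      (cj_PP (F := F) (X := Fin e → F) e M) (cj_PP (F := F) (X := Fin e' → F) e' M) (fun y hy A hA A' hA' => by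
        have hA1 := (hmem e ⟨y, hy⟩ A).1 hA
        have hA2 := (hmem e' ⟨y, hy⟩ A').1 hA'
        refine ⟨?_, hH1 e he e' he' hne y hy A A' hA1.1 hA2.1 hA1.2.2.1 hA2.2.2.1 hA1.2.1 hA2.2.1⟩
        rw [disjoint_iff]
        have hinv : Inv y (A ⊓ A') := fun v hv => ⟨hA1.2.2.1.inv v hv.1, hA2.2.2.1.inv v hv.2⟩
        rcases hA1.2.2.1.min _ inf_le_left hinv with h | h
        · exact h
        · rcases hA2.2.2.1.min _ inf_le_right hinv with h' | h'
          · exact h'
          · exfalso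
            apply hne
            rw [← hA1.2.1, ← hA2.2.1, ← h, h'])
    have h2 : (∑ y : G, (a e y : ℝ) * a e' y) * (Nat.card ((Fin e → F) ≃ₗ[F] (Fin e → F)) *
        Nat.card ((Fin e' → F) ≃ₗ[F] (Fin e' → F))) ≤ (Nat.card G * (x e * x e')) *
          (Nat.card ((Fin e → F) ≃ₗ[F] (Fin e → F)) * Nat.card ((Fin e' → F) ≃ₗ[F] (Fin e' → F))) := by
      have h3 : (Nat.card G * (x e * x e')) * (Nat.card ((Fin e → F) ≃ₗ[F] (Fin e → F)) *
          Nat.card ((Fin e' → F) ≃ₗ[F] (Fin e' → F))) = Nat.card G * ((Nat.card (P e) : ℝ) * Nat.card (P e')) := by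
        rw [← hxe e he, ← hxe e' he']
        ring
      rw [h3]
      exact_mod_cast h1
    exact le_of_mul_le_mul_right h2 (mul_pos (hgl e) (hgl e'))
  -- bad flags
  have hbad : ∀ e ∈ I, ∀ d, 1 ≤ d → e + d ≤ k₀ →
      (∑ y : G, (Nat.card (BP TS (y : V ≃ₗ[F] V) (P e) (II F (Fin d → F))) : ℝ)) ≤ Nat.card G * (x e * (1 / d)) := by
    intro e he d hd hk
    have h1 := sum_BP hFT (X := Fin e → F) (X' := Fin d → F) (by simpa using hk) hT
      (hfr (by rw [Module.finrank_prod]; simpa using hk)) (cj_PP (F := F) (X := Fin e → F) e M)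
      (cj_II (F := F) (X := Fin d → F))
    have h3 := hirr d hd
    rw [card_II, card_GLX] at h3
    have hd0 : (0 : ℝ) < d := by exact_mod_cast hd
    have h2 : (∑ y : G, (Nat.card (BP TS (y : V ≃ₗ[F] V) (P e) (II F (Fin d → F))) : ℝ)) *
        (Nat.card ((Fin e → F) ≃ₗ[F] (Fin e → F)) * Nat.card ((Fin d → F) ≃ₗ[F] (Fin d → F))) ≤
        (Nat.card G * (x e * (1 / d))) *
          (Nat.card ((Fin e → F) ≃ₗ[F] (Fin e → F)) * Nat.card ((Fin d → F) ≃ₗ[F] (Fin d → F))) := by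
      have h4 : (∑ y : G, (Nat.card (BP TS (y : V ≃ₗ[F] V) (P e) (II F (Fin d → F))) : ℝ)) *
        (Nat.card ((Fin e → F) ≃ₗ[F] (Fin e → F)) * Nat.card ((Fin d → F) ≃ₗ[F] (Fin d → F))) ≤
          Nat.card G * ((Nat.card (P e) : ℝ) * Nat.card (II F (Fin d → F))) := by exact_mod_cast h1
      refine h4.trans ?_
      have h5 : (d : ℝ) * Nat.card (II F (Fin d → F)) ≤ Nat.card ((Fin d → F) ≃ₗ[F] (Fin d → F)) := by
        exact_mod_cast h3
      have h6 : (Nat.card (II F (Fin d → F)) : ℝ) ≤ (1 / d) * Nat.card ((Fin d → F) ≃ₗ[F] (Fin d → F)) := by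
        rw [div_mul_eq_mul_div, one_mul, le_div_iff₀ hd0]
        linarith
      calc (Nat.card G : ℝ) * ((Nat.card (P e) : ℝ) * Nat.card (II F (Fin d → F))) ≤
          Nat.card G * ((Nat.card (P e) : ℝ) * ((1 / d) * Nat.card ((Fin d → F) ≃ₗ[F] (Fin d → F)))) := by
            gcongr
        _ = _ := by rw [← hxe e he]; ring
    exact le_of_mul_le_mul_right h2 (mul_pos (hgl e) (hgl d))
  -- good subspaces
  have hgd1 : ∀ e (y : G), Nat.card (gd e y) ≤ a e y := fun e y =>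
    Nat.card_mono (Set.toFinite _) (hsub e y)
  have hgd2 : ∀ e ∈ I, ∀ y : G, Nat.card (gd e y) ≤ 2 := by
    intro e he y
    have h1 := hH2 e he y y.2 (Set.toFinite (gd e y)).toFinset (fun A hA => (Set.Finite.mem_toFinset _).1 hA)
    rwa [← Nat.card_eq_card_finite_toFinset] at h1
  have hgd3 : ∀ e ∈ I, ∀ y : G, a e y ≤ Nat.card (gd e y) +
      ∑ j ∈ Finset.range k₀, if e + (j + 1) * e ≤ k₀ then
        Nat.card (BP TS (y : V ≃ₗ[F] V) (P e) (II F (Fin ((j + 1) * e) → F))) else 0 := by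
    intro e he y
    have he2 := (hI e he).1
    -- the other subspaces
    have h1 : a e y ≤ Nat.card (gd e y) + Nat.card ↥(AA TS (y : V ≃ₗ[F] V) (P e) \ gd e y) := by
      have := Set.ncard_le_ncard_sdiff_add_ncard (AA TS (y : V ≃ₗ[F] V) (P e)) (gd e y) (Set.toFinite _)
      rw [add_comm]
      exact this
    refine h1.trans (Nat.add_le_add_left ?_ _)
    have hch : ∀ A : ↥(AA TS (y : V ≃ₗ[F] V) (P e) \ gd e y), ∃ (j : Finset.range k₀) (B : Submodule F V),
        e + (j.1 + 1) * e ≤ k₀ ∧ (A.1, B) ∈ BP TS (y : V ≃ₗ[F] V) (P e) (II F (Fin ((j.1 + 1) * e) → F)) := by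
      rintro ⟨A, hA, hng⟩
      have hA1 := (hmem e y A).1 hA
      have h2 : ¬ ∀ B, TS B → Inv (y : V ≃ₗ[F] V) B → A < B → (∀ C, Inv (y : V ≃ₗ[F] V) C → A ≤ C → C ≤ B →
          C = A ∨ C = B) → ¬ e ∣ finrank F B := fun h => hng ⟨hA1.1, hA1.2.1, hA1.2.2.1, hA1.2.2.2, h⟩
      push Not at h2
      obtain ⟨B, hB, hBi, hAB, hmin, hdiv⟩ := h2
      have h3 := hH3 e he B hB hdiv
      obtain ⟨c, hc⟩ := hdiv
      have h4 : finrank F A < finrank F B := Submodule.finrank_lt_finrank_of_lt hAB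
      rw [hA1.2.1] at h4
      have hc2 : 2 ≤ c := by
        by_contra hc2
        have : c ≤ 1 := by omega
        have : e * c ≤ e * 1 := Nat.mul_le_mul_left _ this
        omega
      obtain ⟨j, rfl⟩ : ∃ j, c = j + 2 := ⟨c - 2, by omega⟩
      have h5 : finrank F B = e + (j + 1) * e := by rw [hc]; ring
      refine ⟨⟨j, Finset.mem_range.2 ?_⟩, B, by rw [← h5]; exact h3, ?_⟩
      · have : (j + 1) * 1 ≤ (j + 1) * e := Nat.mul_le_mul_left _ (by omega)
        omega
      · exact mem_BP hA hB hBi hAB hmin (by simpa using h5)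
    choose j B hjk hB using hch
    have h2 : Nat.card ↥(AA TS (y : V ≃ₗ[F] V) (P e) \ gd e y) ≤ Nat.card (Σ j : Finset.range k₀,
        {p : Submodule F V × Submodule F V // e + (j.1 + 1) * e ≤ k₀ ∧
          p ∈ BP TS (y : V ≃ₗ[F] V) (P e) (II F (Fin ((j.1 + 1) * e) → F))}) := by
      refine Nat.card_le_card_of_injective (fun A => ⟨j A, (A.1, B A), hjk A, hB A⟩) ?_
      intro A A' h
      apply Subtype.ext
      have := congrArg (fun q : (Σ j : Finset.range k₀,
        {p : Submodule F V × Submodule F V // e + (j.1 + 1) * e ≤ k₀ ∧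
          p ∈ BP TS (y : V ≃ₗ[F] V) (P e) (II F (Fin ((j.1 + 1) * e) → F))}) => q.2.1.1) h
      exact this
    refine h2.trans ?_
    rw [Nat.card_sigma, ← Finset.sum_coe_sort (Finset.range k₀)]
    refine Finset.sum_le_sum fun j _ => ?_
    split_ifs with hc
    · refine le_of_eq (Nat.card_congr (Equiv.subtypeEquivRight fun p => by simp [hc]))
    · have : IsEmpty {p : Submodule F V × Submodule F V // e + (j.1 + 1) * e ≤ k₀ ∧
          p ∈ BP TS (y : V ≃ₗ[F] V) (P e) (II F (Fin ((j.1 + 1) * e) → F))} := ⟨fun p => hc p.2.1⟩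
      rw [Nat.card_of_isEmpty]
  have hmean : ∀ e ∈ I, Nat.card G * ((1 - η) * x e) ≤ ∑ y : G, (Nat.card (gd e y) : ℝ) := by
    intro e he
    have he2 := (hI e he).1
    have h1 : (∑ y : G, (a e y : ℝ)) ≤ (∑ y : G, (Nat.card (gd e y) : ℝ)) +
        ∑ j ∈ Finset.range k₀, Nat.card G * (x e * (1 / (((j + 1) * e : ℕ) : ℝ))) := by
      have h2 : (∑ y : G, (a e y : ℝ)) ≤ ∑ y : G, ((Nat.card (gd e y) : ℝ) +
          ∑ j ∈ Finset.range k₀, if e + (j + 1) * e ≤ k₀ then
            (Nat.card (BP TS (y : V ≃ₗ[F] V) (P e) (II F (Fin ((j + 1) * e) → F))) : ℝ) else 0) := by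
        refine Finset.sum_le_sum fun y _ => ?_
        have := hgd3 e he y
        have h3 : ((a e y : ℕ) : ℝ) ≤ ((Nat.card (gd e y) +
          ∑ j ∈ Finset.range k₀, if e + (j + 1) * e ≤ k₀ then
            Nat.card (BP TS (y : V ≃ₗ[F] V) (P e) (II F (Fin ((j + 1) * e) → F))) else 0 : ℕ) : ℝ) := by
          exact_mod_cast this
        push_cast at h3
        exact h3
      refine h2.trans ?_
      rw [Finset.sum_add_distrib, Finset.sum_comm]
      refine add_le_add le_rfl (Finset.sum_le_sum fun j _ => ?_)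
      split_ifs with hc
      · refine (hbad e he ((j + 1) * e) (Nat.mul_pos (by omega) (by omega)) hc)
      · rw [Finset.sum_const_zero]
        have := hx0 e he
        positivity
    rw [hfirst e he, ← Finset.mul_sum, ← Finset.mul_sum] at h1
    have h2 := hη e he
    have h3 : x e * ∑ j ∈ Finset.range k₀, 1 / (((j + 1) * e : ℕ) : ℝ) ≤ x e * η :=
      mul_le_mul_of_nonneg_left h2 (hx0 e he)
    have h4 := mul_le_mul_of_nonneg_left h3 hG0.le
    nlinarith
  -- the random variable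
  let R : G → ℕ := fun y => ∑ e ∈ I, Nat.card (gd e y)
  have hS0 : 0 ≤ ∑ e ∈ I, x e := Finset.sum_nonneg hx0
  have hR1 : (Fintype.card G : ℝ) * ((1 - η) * ∑ e ∈ I, x e) ≤ ∑ y : G, (R y : ℝ) := by
    rw [← Nat.card_eq_fintype_card]
    have h1 : ∑ y : G, (R y : ℝ) = ∑ e ∈ I, ∑ y : G, (Nat.card (gd e y) : ℝ) := by
      rw [Finset.sum_comm]
      refine Finset.sum_congr rfl fun y _ => ?_
      simp only [R]
      push_cast
      rfl
    rw [h1, Finset.mul_sum, Finset.mul_sum]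
    exact Finset.sum_le_sum fun e he => hmean e he
  have hR2 : ∑ y : G, (R y : ℝ) ^ 2 ≤ Fintype.card G * (2 * (∑ e ∈ I, x e) + (∑ e ∈ I, x e) ^ 2) := by
    rw [← Nat.card_eq_fintype_card]
    have h1 : ∀ y : G, (R y : ℝ) ^ 2 = ∑ e ∈ I, ∑ e' ∈ I, (Nat.card (gd e y) : ℝ) * Nat.card (gd e' y) := by
      intro y
      simp only [R]
      push_cast
      rw [pow_two, Finset.sum_mul_sum]
    have h2 : ∑ y : G, (R y : ℝ) ^ 2 = ∑ e ∈ I, ∑ e' ∈ I, ∑ y : G, (Nat.card (gd e y) : ℝ) * Nat.card (gd e' y) := by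
      rw [Finset.sum_congr rfl fun y _ => h1 y, Finset.sum_comm]
      refine Finset.sum_congr rfl fun e _ => ?_
      rw [Finset.sum_comm]
    rw [h2]
    have h3 : ∀ e ∈ I, ∀ e' ∈ I, ∑ y : G, (Nat.card (gd e y) : ℝ) * Nat.card (gd e' y) ≤
        Nat.card G * (x e * x e' + if e = e' then 2 * x e else 0) := by
      intro e he e' he'
      by_cases h : e = e'
      · subst h
        rw [if_pos rfl]
        have h4 : ∑ y : G, (Nat.card (gd e y) : ℝ) * Nat.card (gd e y) ≤ ∑ y : G, 2 * (a e y : ℝ) := by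
          refine Finset.sum_le_sum fun y _ => ?_
          have h5 : (Nat.card (gd e y) : ℝ) ≤ 2 := by exact_mod_cast hgd2 e he y
          have h6 : (Nat.card (gd e y) : ℝ) ≤ a e y := by exact_mod_cast hgd1 e y
          exact mul_le_mul h5 h6 (Nat.cast_nonneg _) (by norm_num)
        rw [← Finset.mul_sum, hfirst e he] at h4
        refine h4.trans ?_
        have := mul_nonneg (hx0 e he) (hx0 e he)
        nlinarith
      · rw [if_neg h, add_zero]
        refine le_trans ?_ (hcross e he e' he' h)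
        refine Finset.sum_le_sum fun y _ => ?_
        have h5 : (Nat.card (gd e y) : ℝ) ≤ a e y := by exact_mod_cast hgd1 e y
        have h6 : (Nat.card (gd e' y) : ℝ) ≤ a e' y := by exact_mod_cast hgd1 e' y
        exact mul_le_mul h5 h6 (Nat.cast_nonneg _) (Nat.cast_nonneg _)
    refine (Finset.sum_le_sum fun e he => Finset.sum_le_sum fun e' he' => h3 e he e' he').trans (le_of_eq ?_)
    simp only [← Finset.mul_sum, Finset.sum_add_distrib]
    congr 1
    rw [pow_two, Finset.sum_mul_sum, add_comm]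
    congr 1
    · rw [Finset.mul_sum]
      refine Finset.sum_congr rfl fun e he => ?_
      rw [Finset.sum_ite_eq, if_pos he]
    · refine Finset.sum_congr rfl fun e _ => ?_
      rw [Finset.mul_sum]
  have h := second_moment R hS0 hη0 hη1 hR1 hR2
  rw [← Nat.card_eq_fintype_card] at h
  refine le_trans (mul_le_mul_of_nonneg_right ?_ (sq_nonneg _)) h
  have h1 : noG G TS M I ≤ Nat.card {y : G // R y = 0} := by
    unfold noG
    refine Nat.card_le_card_of_injective (fun y => ⟨⟨y.1, y.2.1⟩, ?_⟩) fun y y' h => ?_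
    · show ∑ e ∈ I, Nat.card (gd e ⟨y.1, y.2.1⟩) = 0
      rw [Finset.sum_eq_zero_iff]
      intro e he
      have : IsEmpty (gd e ⟨y.1, y.2.1⟩) := ⟨fun A => y.2.2 ⟨e, he, A.1, A.2⟩⟩
      exact Nat.card_of_isEmpty
    · apply Subtype.ext
      exact congrArg (fun z : {y : G // R y = 0} => (z.1 : V ≃ₗ[F] V)) h
  exact_mod_cast h1

end Cfsg.Agent.H50.RG
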