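import Cfsg.Agent.H50.RG.Mix
import Cfsg.Agent.H50.RG.StatMain

/-!
# S5714, layer L: the results `LSL`, `LSp`, `LSU`, `LOm` from the pieces
-/

set_option autoImplicit false
set_option linter.unusedSectionVars false

namespace Cfsg.Agent.H50.RG

open Module Cfsg.Agent.H847.Bs Cfsg.Agent.LieClassical.OrthCore
open Cfsg.Agent.H440.Bs (perp mem_perp)

theorem num_fin {ε n₀ N S η : ℝ} (hε : 0 < ε) (hn : 0 ≤ n₀) (hN : 0 ≤ N) (_hη0 : 0 ≤ η) (hη1 : η ≤ 1 / 2)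
    (hη : 16 * η ≤ ε) (hS : 16 / ε ≤ S) (h : n₀ * ((1 - η) * S) ^ 2 ≤ N * (2 * S + 2 * η * S ^ 2)) : n₀ ≤ ε * N := by
  have hS0 : 0 < S := lt_of_lt_of_le (by positivity) hS
  rw [div_le_iff₀ hε] at hS
  have h1 : n₀ * (S ^ 2 / 4) ≤ n₀ * ((1 - η) * S) ^ 2 := by
    refine mul_le_mul_of_nonneg_left ?_ hn
    have h2 : (1 / 2) * S ≤ (1 - η) * S := by nlinarith
    have h3 := pow_le_pow_left₀ (by positivity) h2 2
    calc S ^ 2 / 4 = (1 / 2 * S) ^ 2 := by ring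
      _ ≤ _ := h3
  have h2 : N * (2 * S + 2 * η * S ^ 2) ≤ N * (ε * S ^ 2 / 4) := by
    refine mul_le_mul_of_nonneg_left ?_ hN
    have h3 : 2 * S ≤ ε * S ^ 2 / 8 := by nlinarith
    have h4 : 2 * η * S ^ 2 ≤ ε * S ^ 2 / 8 := by
      have : 0 ≤ S ^ 2 := sq_nonneg S
      nlinarith
    linarith
  have h3 : (S ^ 2 / 4) * n₀ ≤ (S ^ 2 / 4) * (ε * N) := by linarith
  exact le_of_mul_le_mul_left h3 (by positivity)

/-- the common part: `k₀` is the bound for the frames, `par` the parity -/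
theorem common (h02 : L02) (h03 : L03) (h20 : L20) (ε : ℝ) (C par : ℕ) (hε : 0 < ε) : ∃ N₀ : ℕ,
    ∀ (F V : Type) [Field F] [Finite F] [AddCommGroup V] [Module F V] [Module.Finite F V]
    (G : Subgroup (V ≃ₗ[F] V)) (TS : Submodule F V → Prop) (k₀ : ℕ), N₀ ≤ finrank F V → k₀ ≤ finrank F V →
    (finrank F V - 3) / 2 ≤ k₀ →
    (∀ A B, A ≤ B → TS B → TS A) → FT G TS k₀ → (∃ A, TS A ∧ finrank F A = k₀) →
    (∀ g ∈ G, ∀ A, TS A → TS (A.map (g : V →ₗ[F] V))) →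
    (∀ y ∈ G, ∀ A A', TS A → TS A' → Irr y A → Irr y A' → finrank F A ≠ finrank F A' →
      finrank F A + finrank F A' < finrank F V → TS (A ⊔ A')) →
    (∀ e M, 3 ≤ e → e % 2 = par % 2 → 2 * e < finrank F V → 2 ≤ M → ∀ y ∈ G, ∀ s : Finset (Submodule F V),
      (∀ A ∈ s, Gd TS e M y A) → s.card ≤ 2) →
    (∀ e, ¬ e ∣ (finrank F V - 1) / 2 → ¬ e ∣ (finrank F V + 1) / 2 → ∀ B, TS B → e ∣ finrank F B →
      finrank F B ≤ k₀) →
    (∀ e M, 3 ≤ e → e % 2 = par % 2 → 4 * e + 8 ≤ finrank F V → ¬ e ∣ finrank F V → 2 ≤ M →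
      ∀ (y : V ≃ₗ[F] V) (hy : y ∈ G) (A : Submodule F V), Gd TS e M y A → ∀ R : ℝ, R ≤ M → MixY R (⟨y, hy⟩ : G)) →
    (Nat.card {y : G // ¬ MixY (((finrank F V : ℝ) ^ 2 * Real.log (Nat.card F)) ^ C) y} : ℝ) ≤ ε * Nat.card G := by
  set η : ℝ := min (1 / 2) (ε / 16) with hηdef
  have hη0 : 0 < η := by positivity
  obtain ⟨N₀, hN₀⟩ := h20 (16 / ε) η C par hη0
  refine ⟨N₀, fun F V _ _ _ _ _ G TS k₀ hn hk1 hk2 hh hFT hex hT hH1 hH2 hH3 hmix => ?_⟩
  have hfin : Finite (V ≃ₗ[F] V) := finite_glV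
  have hq : 2 ≤ Nat.card F := Finite.one_lt_card
  obtain ⟨I, M, hM2, hRM, hI, hK⟩ := hN₀ (finrank F V) (Nat.card F) hn hq
  set x : ℕ → ℝ := fun e => (Nat.card {g : GL (Fin e) F // IrrM F g ∧ BigM F e M g} : ℝ) / Nat.card (GL (Fin e) F)
    with hx
  have hGL : ∀ e, (0 : ℝ) < Nat.card (GL (Fin e) F) := fun e => by exact_mod_cast Nat.card_pos
  have h1 := l01 F V G TS k₀ M I x η hh hFT hex hT
    (fun e he => by
      obtain ⟨a1, a2, a3, -⟩ := hI e he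
      omega)
    (fun e he e' he' hne y hy A A' hA hA' hi hi' hd hd' => hH1 y hy A A' hA hA' hi hi' (by omega) (by
      obtain ⟨a1, a2, a3, -⟩ := hI e he
      obtain ⟨b1, b2, b3, -⟩ := hI e' he'
      omega))
    (fun e he y hy s hs => by
      obtain ⟨a1, a2, a3, -⟩ := hI e he
      exact hH2 e M a1 a2 (by omega) hM2 y hy s hs)
    (fun e he B hB hdiv => by
      obtain ⟨a1, a2, a3, a4, a5, a6, -⟩ := hI e he
      exact hH3 e a5 a6 B hB hdiv)
    (fun d hd => h02 F d hd)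
    (fun e he => by
      rw [hx]
      exact div_mul_cancel₀ _ (hGL e).ne')
    hη0.le
    (fun e he => by
      obtain ⟨a1, a2, a3, a4, a5, a6, a7, a8⟩ := hI e he
      refine le_trans (Finset.sum_le_sum_of_subset_of_nonneg (Finset.range_mono hk1) fun i _ _ => ?_) a8
      positivity)
    ((min_le_left _ _).trans (by norm_num))
  have hS : 16 / ε ≤ ∑ e ∈ I, x e := by
    refine hK.trans (Finset.sum_le_sum fun e he => ?_)
    obtain ⟨a1, a2, a3, a4, a5, a6, a7, a8⟩ := hI e he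
    have h2 := h03 F e M a1 hM2 a7
    have h3 : (Nat.card (GL (Fin e) F) : ℝ) ≤ 2 * e * Nat.card {g : GL (Fin e) F // IrrM F g ∧ BigM F e M g} := by
      exact_mod_cast h2
    have he0 : (0 : ℝ) < e := by exact_mod_cast (show 0 < e by omega)
    rw [hx]
    rw [div_le_div_iff₀ (by positivity) (hGL e)]
    linarith
  have h2 := num_fin hε (Nat.cast_nonneg _) (Nat.cast_nonneg _) hη0.le (min_le_left _ _) (by
    have : η ≤ ε / 16 := min_le_right _ _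
    linarith) hS h1
  refine le_trans ?_ h2
  have h3 : Nat.card {y : G // ¬ MixY (((finrank F V : ℝ) ^ 2 * Real.log (Nat.card F)) ^ C) y} ≤ noG G TS M I := by
    unfold noG
    refine Nat.card_le_card_of_injective (fun y => ⟨y.1.1, y.1.2, ?_⟩) fun y y' h => ?_
    · rintro ⟨e, he, A, hA⟩
      obtain ⟨a1, a2, a3, a4, a5, a6, a7, a8⟩ := hI e he
      exact y.2 (hmix e M a1 a2 a3 a4 hM2 y.1.1 y.1.2 A hA _ hRM)
    · have h4 : (y.1 : V ≃ₗ[F] V) = y'.1 := congrArg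
        (fun z : {y : V ≃ₗ[F] V // y ∈ G ∧ ¬ ∃ e ∈ I, ∃ A, Gd TS e M y A} => z.1) h
      exact Subtype.ext (Subtype.ext h4)
  exact_mod_cast h3

/-! ### linear groups -/

theorem exists_sub {F V : Type} [Field F] [AddCommGroup V] [Module F V] [Module.Finite F V] {k : ℕ}
    (hk : k ≤ finrank F V) : ∃ A : Submodule F V, finrank F A = k := by
  let b := finBasis F V
  refine ⟨Submodule.span F (Set.range (b ∘ Fin.castLE hk)), ?_⟩
  rw [finrank_span_eq_card (b.linearIndependent.comp _ (Fin.castLE_injective hk)), Fintype.card_fin]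

theorem lsl (h02 : L02) (h03 : L03) (h04 : L04) (h12 : L12) (h13 : L13) (h16 : L16) (h20 : L20) : LSL := by
  intro ε C hε
  obtain ⟨N₀, h⟩ := common h02 h03 h20 ε C 1 hε
  refine ⟨N₀ + 1, fun F V _ _ _ _ _ hn => ?_⟩
  refine h F V (slV F V) (Prp F V) (finrank F V - 1) (by omega) (by omega) (by omega)
    (fun A B hAB hB => (Submodule.finrank_mono hAB).trans_lt hB) (h04 F V (by omega)) ?_ ?_ ?_ ?_ ?_ ?_
  · obtain ⟨A, hA⟩ := exists_sub (F := F) (V := V) (k := finrank F V - 1) (by omega)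
    exact ⟨A, by unfold Prp; omega, hA⟩
  · intro g _ A hA
    unfold Prp at hA ⊢
    rwa [LinearEquiv.finrank_map_eq]
  · intro y _ A A' _ _ _ _ _ hlt
    exact (Submodule.finrank_add_le_finrank_add_finrank A A').trans_lt hlt
  · intro e M he _ hlt hM y _ s hs
    exact (h12 F V e M (by omega) hlt y s hs).trans (by omega)
  · intro e _ _ B hB _
    unfold Prp at hB
    omega
  · intro e M he _ _ hdiv hM y hy A hA R hR
    exact mix_lin h13 h16 (by omega) hM hdiv hy hA hR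

/-! ### groups of isometries -/

section

variable {F V : Type} [Field F] [Finite F] [AddCommGroup V] [Module F V] [Module.Finite F V]

theorem ti_map {Φ : Frm F V} {g : V ≃ₗ[F] V} (hg : g ∈ Φ.Iso) {A : Submodule F V} (hA : Φ.TI A) :
    Φ.TI (A.map (g : V →ₗ[F] V)) := by
  constructor
  · rintro _ ⟨x, hx, rfl⟩ _ ⟨x', hx', rfl⟩
    exact (hg.1 x x').trans (hA.1 x hx x' hx')
  · rintro _ ⟨x, hx, rfl⟩
    exact (hg.2 x).trans (hA.2 x hx)

theorem ti_mono {Φ : Frm F V} {A B : Submodule F V} (h : A ≤ B) (hB : Φ.TI B) : Φ.TI A :=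
  ⟨fun x hx y hy => hB.1 x (h hx) y (h hy), fun x hx => hB.2 x (h hx)⟩

end

/-- the common part for the groups of isometries -/
theorem common_form (h02 : L02) (h03 : L03) (h08 : L08) (h09 : L09) (h11 : L11) (h14 : L14) (h15 : L15) (h20 : L20)
    (ε : ℝ) (C par : ℕ) (hε : 0 < ε) : ∃ N₀ : ℕ,
    ∀ (F V : Type) [Field F] [Finite F] [AddCommGroup V] [Module F V] [Module.Finite F V] (Φ : Frm F V)
    (G : Subgroup (V ≃ₗ[F] V)), N₀ ≤ finrank F V → G ≤ Φ.Iso →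
    (IsSp Φ ∨ (∃ r, IsHerm r Φ) ∨ (∃ Q : QuadraticForm F V, (frmQ Q).Nd ∧ Φ = frmQ Q)) →
    (∀ e, 3 ≤ e → e % 2 = par % 2 → Cls Φ e) →
    (∀ k₀, 2 * k₀ + 3 ≤ finrank F V → FT G Φ.TI k₀) →
    (∀ A A' C : Submodule F V, 3 ≤ finrank F A → 4 * finrank F A + 8 ≤ finrank F V → Opp Φ A A' C → C ≠ ⊥ →
      (G ⊓ RadG Φ A) ⊔ (G ⊓ RadG Φ A') = G) →
    (Nat.card {y : G // ¬ MixY (((finrank F V : ℝ) ^ 2 * Real.log (Nat.card F)) ^ C) y} : ℝ) ≤ ε * Nat.card G := by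
  obtain ⟨N₀, h⟩ := common h02 h03 h20 ε C par hε
  refine ⟨N₀ + 10, fun F V _ _ _ _ _ Φ G hn hG hty hcls hFT hgen => ?_⟩
  have hNd : Φ.Nd := (hcls (3 + (par + 1) % 2) (by omega) (by omega)).1
  obtain ⟨hex, hbd⟩ := h08 F V Φ hty
  refine h F V G Φ.TI ((finrank F V - 3) / 2) (by omega) (by omega) le_rfl (fun A B hAB hB => ti_mono hAB hB)
    (hFT _ (by omega)) (hex _ (by omega)) (fun g hg A hA => ti_map (hG hg) hA) ?_ ?_ ?_ ?_
  · intro y hy A A' hA hA' hi hi' hne _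
    exact h09 F V Φ hNd y (hG hy) A A' hA hA' hi hi' hne
  · intro e M he hpar _ hM y hy s hs
    exact h11 F V Φ e M (hcls e he hpar) hM y (hG hy) s hs
  · intro e h1 h2 B hB hdiv
    have h3 := hbd B hB
    by_contra hlt
    have h4 : finrank F B = (finrank F V - 1) / 2 ∨ finrank F B = (finrank F V + 1) / 2 := by omega
    rcases h4 with h4 | h4
    · exact h1 (h4 ▸ hdiv)
    · exact h2 (h4 ▸ hdiv)
  · intro e M he hpar hle _ hM y hy A hA R hR
    refine mix_form h14 h15 hG (hcls e he hpar) hM (fun A A' C hd hO => hgen A A' C (by omega) (by omega) hO ?_) hy hA hR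
    rintro rfl
    have h1 : A ⊔ A' = ⊤ := by simpa using hO.compl.codisjoint.eq_top
    have h2 := Submodule.finrank_add_le_finrank_add_finrank A A'
    rw [h1, finrank_top, ← hO.dim] at h2
    omega

theorem lsp (h02 : L02) (h03 : L03) (h05 : L05) (h08 : L08) (h09 : L09) (h11 : L11) (h14 : L14) (h15 : L15)
    (h17 : L17) (h20 : L20) : LSp := by
  intro ε C hε
  obtain ⟨N₀, h⟩ := common_form h02 h03 h08 h09 h11 h14 h15 h20 ε C 1 hε
  refine ⟨N₀, fun F V _ _ _ _ _ Φ hΦ hn => h F V Φ Φ.Iso hn le_rfl (Or.inl hΦ) ?_ (h05 F V Φ hΦ) ?_⟩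
  · intro e he hpar
    exact ⟨hΦ.nd, by omega, Or.inl ⟨hΦ, Nat.odd_iff.2 hpar⟩⟩
  · intro A A' C hA _ hO hC
    refine h17 F V Φ A A' C hΦ hO ?_ hC
    rintro rfl
    rw [finrank_bot] at hA
    omega

theorem lsu (h02 : L02) (h03 : L03) (h06 : L06) (h08 : L08) (h09 : L09) (h11 : L11) (h14 : L14) (h15 : L15)
    (h18 : L18) (h20 : L20) : LSU := by
  intro ε C hε
  obtain ⟨N₀, h⟩ := common_form h02 h03 h08 h09 h11 h14 h15 h20 ε C 0 hε
  refine ⟨N₀, fun F V _ _ _ _ _ r Φ hΦ hn => h F V Φ (Φ.Iso ⊓ slV F V) hn inf_le_left (Or.inr (Or.inl ⟨r, hΦ⟩)) ?_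
    (h06 F V r Φ hΦ) ?_⟩
  · intro e he hpar
    exact ⟨hΦ.nd, by omega, Or.inr (Or.inl ⟨r, hΦ, Nat.even_iff.2 hpar⟩)⟩
  · intro A A' C hA _ hO hC
    exact h18 F V r Φ A A' C hΦ hO (by omega) hC

theorem lom (h02 : L02) (h03 : L03) (h07 : L07) (h08 : L08) (h09 : L09) (h11 : L11) (h14 : L14) (h15 : L15)
    (h19 : L19) (h20 : L20) : LOm := by
  intro ε C hε
  obtain ⟨N₀, h⟩ := common_form h02 h03 h08 h09 h11 h14 h15 h20 ε C 1 hε
  refine ⟨N₀, fun F V _ _ _ _ _ Q hQ hn => h F V (frmQ Q) (E Q) hn ?_ (Or.inr (Or.inr ⟨Q, hQ, rfl⟩)) ?_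
    (h07 F V Q hQ) ?_⟩
  · intro g hg
    have hO := E_le_O hg
    refine ⟨fun x y => ?_, fun x => hO x⟩
    show QuadraticMap.polar Q (g x) (g y) = QuadraticMap.polar Q x y
    unfold QuadraticMap.polar
    rw [← map_add, hO, hO, hO]
  · intro e he hpar
    exact ⟨hQ, by omega, Or.inr (Or.inr ⟨Q, rfl, Nat.odd_iff.2 hpar⟩)⟩
  · intro A A' C hA _ hO hC
    refine h19 F V Q A A' C hQ hO ?_ hC
    rintro rfl
    rw [finrank_bot] at hA
    omega

end Cfsg.Agent.H50.RG
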