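import Cfsg.Agent.H50.RG.LStmts

/-!
# S5714, layer L: counting frames (first part of `L01`)

* `Fr TS X` : the injective linear maps `X → V` with range in `TS`;
* `card_fib` : for a frame `φ` and `m ∈ GL(X)` there are `|G| / |Fr|` elements `y ∈ G` with `y φ = φ m`;
* `sum_card` : `∑_{y ∈ G} #{φ | y φ = φ m, m ∈ S} = |G| |S|`.
-/

set_option autoImplicit false
set_option linter.unusedSectionVars false

namespace Cfsg.Agent.H50.RG

open Module Cfsg.Agent.H847.Bs

section

variable {F V : Type*} [Field F] [AddCommGroup V] [Module F V]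

/-- frames: injective linear maps with range in `TS` -/
@[ext] structure Fr (TS : Submodule F V → Prop) (X : Type*) [AddCommGroup X] [Module F X] where
  /-- the map -/
  map : X →ₗ[F] V
  inj : Function.Injective map
  ts : TS (LinearMap.range map)

variable {G : Subgroup (V ≃ₗ[F] V)} {TS : Submodule F V → Prop} {k₀ : ℕ}
variable {X : Type*} [AddCommGroup X] [Module F X] [FiniteDimensional F X]

theorem fr_trans (h : FT G TS k₀) (hX : finrank F X ≤ k₀) (φ φ' : Fr TS X) :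
    ∃ g ∈ G, ∀ x, (g : V ≃ₗ[F] V) (φ.map x) = φ'.map x := by
  let b := finBasis F X
  have hr : ∀ ψ : Fr TS X, Submodule.span F (Set.range fun i => ψ.map (b i)) = LinearMap.range ψ.map := by
    intro ψ
    have : (Set.range fun i => ψ.map (b i)) = ψ.map '' Set.range b := by
      ext x
      simp
    rw [this, Submodule.span_image, b.span_eq, Submodule.map_top]
  obtain ⟨g, hg, hh⟩ := h _ hX (fun i => φ.map (b i)) (fun i => φ'.map (b i))
    (b.linearIndependent.map' _ (LinearMap.ker_eq_bot.2 φ.inj))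
    (b.linearIndependent.map' _ (LinearMap.ker_eq_bot.2 φ'.inj))
    (by rw [hr]; exact φ.ts) (by rw [hr]; exact φ'.ts)
  have h1 : ((g : V ≃ₗ[F] V) : V →ₗ[F] V) ∘ₗ φ.map = φ'.map := b.ext fun i => hh i
  exact ⟨g, hg, fun x => LinearMap.congr_fun h1 x⟩

/-- composition with an automorphism of `X` -/
def Fr.comp (φ : Fr TS X) (m : X ≃ₗ[F] X) : Fr TS X :=
  ⟨φ.map ∘ₗ (m : X →ₗ[F] X), φ.inj.comp m.injective, by
    rw [LinearMap.range_comp, LinearEquiv.range, Submodule.map_top]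
    exact φ.ts⟩

@[simp] theorem Fr.comp_apply (φ : Fr TS X) (m : X ≃ₗ[F] X) (x : X) : (φ.comp m).map x = φ.map (m x) := rfl

/-- composition with an element of `G` -/
def Fr.smul (hT : ∀ g ∈ G, ∀ A, TS A → TS (A.map (g : V →ₗ[F] V))) (y : G) (φ : Fr TS X) : Fr TS X :=
  ⟨((y : V ≃ₗ[F] V) : V →ₗ[F] V) ∘ₗ φ.map, (y : V ≃ₗ[F] V).injective.comp φ.inj, by
    rw [LinearMap.range_comp]
    exact hT _ y.2 _ φ.ts⟩

@[simp] theorem Fr.smul_apply (hT : ∀ g ∈ G, ∀ A, TS A → TS (A.map (g : V →ₗ[F] V))) (y : G) (φ : Fr TS X)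
    (x : X) : (Fr.smul hT y φ).map x = (y : V ≃ₗ[F] V) (φ.map x) := rfl

theorem Fr.ext' {φ ψ : Fr TS X} (h : ∀ x, φ.map x = ψ.map x) : φ = ψ := Fr.ext (LinearMap.ext h)

theorem Fr.congr' {φ ψ : Fr TS X} (h : φ = ψ) (x : X) : φ.map x = ψ.map x := by rw [h]

/-- all fibres equal -/
theorem card_eq_of_fib {A B : Type*} [Finite A] [Finite B] (f : A → B) (c : ℕ)
    (h : ∀ b, Nat.card {a // f a = b} = c) : Nat.card A = Nat.card B * c := by
  have := Fintype.ofFinite B
  rw [Nat.card_congr (Equiv.sigmaFiberEquiv f).symm, Nat.card_sigma, Finset.sum_congr rfl fun b _ => h b,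
    Finset.sum_const, Finset.card_univ, smul_eq_mul, Nat.card_eq_fintype_card]

instance [Finite V] [Finite X] : Finite (Fr TS X) :=
  Finite.of_injective (fun φ : Fr TS X => (φ.map : X → V)) fun _ _ h => Fr.ext (DFunLike.coe_injective h)

instance finite_equiv [Finite X] : Finite (X ≃ₗ[F] X) :=
  Finite.of_injective (fun φ : X ≃ₗ[F] X => (φ : X → X)) DFunLike.coe_injective

theorem card_fib [Finite V] [Finite X] (h : FT G TS k₀) (hX : finrank F X ≤ k₀)
    (hT : ∀ g ∈ G, ∀ A, TS A → TS (A.map (g : V →ₗ[F] V))) (φ φ' : Fr TS X) :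
    Nat.card (Fr TS X) * Nat.card {y : G // Fr.smul hT y φ = φ'} = Nat.card G := by
  refine (card_eq_of_fib (fun y : G => Fr.smul hT y φ) _ fun φ'' => ?_).symm
  obtain ⟨g, hg, hgg⟩ := fr_trans h hX φ'' φ'
  refine Nat.card_congr
    { toFun := fun y => ⟨⟨g, hg⟩ * y.1, ?_⟩
      invFun := fun y => ⟨⟨g, hg⟩⁻¹ * y.1, ?_⟩
      left_inv := fun y => by simp
      right_inv := fun y => by simp }
  · refine Fr.ext' fun x => ?_
    have h1 := Fr.congr' y.2 x
    rw [Fr.smul_apply] at h1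
    rw [Fr.smul_apply, ← hgg, ← h1]
    rfl
  · refine Fr.ext' fun x => ?_
    have h1 := Fr.congr' y.2 x
    rw [Fr.smul_apply, ← hgg] at h1
    rw [Fr.smul_apply]
    show (g⁻¹ : V ≃ₗ[F] V) ((y.1 : V ≃ₗ[F] V) (φ.map x)) = _
    rw [h1]
    exact g.symm_apply_apply _

/-- `y φ = φ m` for some `m ∈ S` -/
def Ad (y : V ≃ₗ[F] V) (S : Set (X ≃ₗ[F] X)) (φ : X →ₗ[F] V) : Prop :=
  ∃ m ∈ S, ∀ x, y (φ x) = φ (m x)

/-- the main counting lemma -/
theorem sum_card [Finite V] [Finite X] (h : FT G TS k₀) (hX : finrank F X ≤ k₀)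
    (hT : ∀ g ∈ G, ∀ A, TS A → TS (A.map (g : V →ₗ[F] V))) (hne : Nonempty (Fr TS X)) (S : Set (X ≃ₗ[F] X)) :
    Nat.card (Σ y : G, {φ : Fr TS X // Ad (y : V ≃ₗ[F] V) S φ.map}) = Nat.card G * Nat.card S := by
  classical
  have e1 : Nat.card (Σ y : G, {φ : Fr TS X // Ad (y : V ≃ₗ[F] V) S φ.map}) =
      Nat.card (Σ p : Fr TS X × S, {y : G // Fr.smul hT y p.1 = p.1.comp p.2}) := by
    refine Nat.card_congr
      { toFun := fun a => ⟨(a.2.1, ⟨a.2.2.choose, a.2.2.choose_spec.1⟩), a.1, ?_⟩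
        invFun := fun b => ⟨b.2.1, b.1.1, b.1.2.1, b.1.2.2, fun x => ?_⟩
        left_inv := fun a => rfl
        right_inv := ?_ }
    · exact Fr.ext' fun x => a.2.2.choose_spec.2 x
    · exact Fr.congr' b.2.2 x
    · rintro ⟨⟨φ, m⟩, y, hy⟩
      have hA : Ad (y : V ≃ₗ[F] V) S φ.map := ⟨m.1, m.2, fun x => Fr.congr' hy x⟩
      have key : (⟨hA.choose, hA.choose_spec.1⟩ : S) = m := by
        apply Subtype.ext
        ext x
        apply φ.inj
        show φ.map (hA.choose x) = φ.map (m.1 x)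
        rw [← hA.choose_spec.2 x]
        exact Fr.congr' hy x
      have key' : ∀ (m' : S) (hm' : m' = m) (h' : Fr.smul hT y φ = φ.comp m'),
          (⟨(φ, m'), y, h'⟩ : Σ p : Fr TS X × S, {y : G // Fr.smul hT y p.1 = p.1.comp p.2}) = ⟨(φ, m), y, hy⟩ := by
        rintro m' rfl h'
        rfl
      exact key' _ key _
  have e2 : Nat.card (Fr TS X) * Nat.card (Σ p : Fr TS X × S, {y : G // Fr.smul hT y p.1 = p.1.comp p.2}) =
      Nat.card (Fr TS X) * (Nat.card G * Nat.card S) := by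
    have := Fintype.ofFinite (Fr TS X)
    have := Fintype.ofFinite S
    rw [Nat.card_sigma, Finset.mul_sum, Finset.sum_congr rfl fun p _ => card_fib h hX hT p.1 (p.1.comp p.2),
      Finset.sum_const, Finset.card_univ, Fintype.card_prod, smul_eq_mul, ← Nat.card_eq_fintype_card,
      ← Nat.card_eq_fintype_card]
    ring
  rw [e1]
  exact Nat.eq_of_mul_eq_mul_left (Nat.card_pos) e2

end

end Cfsg.Agent.H50.RG
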