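import Cfsg.Agent.H50.RG.Stat

/-!
# S5714, layer L: counting frames and subspaces (second part of `L01`)

* `AA TS y S` : the subspaces spanned by the frames `φ` with `y φ = φ m`, `m ∈ S`; `card_AA`;
* `cross` : pairs of subspaces; `tri`, `BP`, `card_BP` : flags.
-/

set_option autoImplicit false
set_option linter.unusedSectionVars false

namespace Cfsg.Agent.H50.RG

open Module Cfsg.Agent.H847.Bs

section

variable {F V : Type*} [Field F] [AddCommGroup V] [Module F V]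
variable {G : Subgroup (V ≃ₗ[F] V)} {TS : Submodule F V → Prop} {k₀ : ℕ}
variable {X : Type*} [AddCommGroup X] [Module F X] [FiniteDimensional F X]
variable {X' : Type*} [AddCommGroup X'] [Module F X'] [FiniteDimensional F X']

/-- the subspaces spanned by the frames `φ` with `y φ = φ m`, `m ∈ S` -/
def AA (TS : Submodule F V → Prop) (y : V ≃ₗ[F] V) (S : Set (X ≃ₗ[F] X)) : Set (Submodule F V) :=
  {A | TS A ∧ ∃ φ : X →ₗ[F] V, Function.Injective φ ∧ LinearMap.range φ = A ∧ Ad y S φ}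

/-- closed under conjugation -/
def Cj (S : Set (X ≃ₗ[F] X)) : Prop := ∀ m ∈ S, ∀ t : X ≃ₗ[F] X, t⁻¹ * m * t ∈ S

theorem Ad.comp {y : V ≃ₗ[F] V} {S : Set (X ≃ₗ[F] X)} {φ : X →ₗ[F] V} (h : Ad y S φ)
    {t : X ≃ₗ[F] X} (hS : ∀ m ∈ S, t⁻¹ * m * t ∈ S) : Ad y S (φ ∘ₗ (t : X →ₗ[F] X)) := by
  obtain ⟨m, hm, h⟩ := h
  refine ⟨t⁻¹ * m * t, hS m hm, fun x => ?_⟩
  show y (φ (t x)) = φ (t (t⁻¹ (m (t x))))
  rw [h]
  congr 1
  exact (t.apply_symm_apply _).symm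

/-- two frames with the same range -/
theorem exists_comp {φ φ' : X →ₗ[F] V} (h : Function.Injective φ) (h' : Function.Injective φ')
    (e : LinearMap.range φ = LinearMap.range φ') : ∃ t : X ≃ₗ[F] X, φ' = φ ∘ₗ (t : X →ₗ[F] X) := by
  refine ⟨(LinearEquiv.ofInjective φ' h').trans ((LinearEquiv.ofEq _ _ e.symm).trans
    (LinearEquiv.ofInjective φ h).symm), ?_⟩
  ext x
  have h1 : (LinearEquiv.ofInjective φ h) ((LinearEquiv.ofInjective φ h).symm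
      ((LinearEquiv.ofEq _ _ e.symm) ((LinearEquiv.ofInjective φ' h') x))) =
      (LinearEquiv.ofEq _ _ e.symm) ((LinearEquiv.ofInjective φ' h') x) := LinearEquiv.apply_symm_apply _ _
  have h2 := congrArg Subtype.val h1
  exact h2.symm

theorem card_AA [Finite V] [Finite X] {S : Set (X ≃ₗ[F] X)} (hS : Cj S) (y : V ≃ₗ[F] V) :
    Nat.card {φ : Fr TS X // Ad y S φ.map} = Nat.card (AA TS y S) * Nat.card (X ≃ₗ[F] X) := by
  refine card_eq_of_fib (fun φ : {φ : Fr TS X // Ad y S φ.map} =>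
    (⟨LinearMap.range φ.1.map, φ.1.ts, φ.1.map, φ.1.inj, rfl, φ.2⟩ : AA TS y S)) _ fun A => ?_
  obtain ⟨A, hA, φ₀, hinj, rfl, hAd⟩ := A
  refine (Nat.card_eq_of_bijective (fun t : X ≃ₗ[F] X => (⟨⟨Fr.comp ⟨φ₀, hinj, hA⟩ t,
    hAd.comp fun m hm => hS m hm t⟩, ?_⟩ : {a : {φ : Fr TS X // Ad y S φ.map} //
      (⟨LinearMap.range a.1.map, a.1.ts, a.1.map, a.1.inj, rfl, a.2⟩ : AA TS y S) =
        ⟨LinearMap.range φ₀, hA, φ₀, hinj, rfl, hAd⟩})) ⟨?_, ?_⟩).symm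
  · apply Subtype.ext
    show LinearMap.range (φ₀ ∘ₗ (t : X →ₗ[F] X)) = _
    rw [LinearMap.range_comp, LinearEquiv.range, Submodule.map_top]
  · intro t t' h
    have h1 := congrArg (fun a => a.1.1.map) h
    ext x
    exact hinj (LinearMap.congr_fun h1 x)
  · rintro ⟨⟨ψ, hψ⟩, h⟩
    have h1 := congrArg Subtype.val h
    obtain ⟨t, ht⟩ := exists_comp hinj ψ.inj h1.symm
    refine ⟨t, ?_⟩
    apply Subtype.ext
    apply Subtype.ext
    exact Fr.ext ht.symm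

instance finite_AA [Finite V] (y : V ≃ₗ[F] V) (S : Set (X ≃ₗ[F] X)) : Finite (AA TS y S) := by
  have : Finite (Submodule F V) := Finite.of_injective (fun A : Submodule F V => (A : Set V)) SetLike.coe_injective
  infer_instance

/-- the number of subspaces on average -/
theorem sum_AA [Finite V] [Finite X] (h : FT G TS k₀) (hX : finrank F X ≤ k₀)
    (hT : ∀ g ∈ G, ∀ A, TS A → TS (A.map (g : V →ₗ[F] V))) (hne : Nonempty (Fr TS X)) {S : Set (X ≃ₗ[F] X)}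
    (hS : Cj S) [Fintype G] :
    (∑ y : G, Nat.card (AA TS (y : V ≃ₗ[F] V) S)) * Nat.card (X ≃ₗ[F] X) = Nat.card G * Nat.card S := by
  rw [← sum_card h hX hT hne S, Nat.card_sigma, Finset.sum_mul]
  exact Finset.sum_congr rfl fun y _ => (card_AA hS _).symm

/-- pairs of subspaces on average -/
theorem cross [Finite V] [Finite X] [Finite X'] (h : FT G TS k₀) (hX : finrank F X + finrank F X' ≤ k₀)
    (hT : ∀ g ∈ G, ∀ A, TS A → TS (A.map (g : V →ₗ[F] V))) (hne : Nonempty (Fr TS (X × X')))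
    {S : Set (X ≃ₗ[F] X)} (hS : Cj S) {S' : Set (X' ≃ₗ[F] X')} (hS' : Cj S')
    (hd : ∀ y ∈ G, ∀ A ∈ AA TS y S, ∀ A' ∈ AA TS y S', Disjoint A A' ∧ TS (A ⊔ A')) [Fintype G] :
    (∑ y : G, Nat.card (AA TS (y : V ≃ₗ[F] V) S) * Nat.card (AA TS (y : V ≃ₗ[F] V) S')) *
      (Nat.card (X ≃ₗ[F] X) * Nat.card (X' ≃ₗ[F] X')) ≤ Nat.card G * (Nat.card S * Nat.card S') := by
  classical
  set SS : Set ((X × X') ≃ₗ[F] (X × X')) := Set.range fun p : S × S' => p.1.1.prodCongr p.2.1 with hSS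
  have h1 : Nat.card SS ≤ Nat.card S * Nat.card S' := by
    rw [← Nat.card_prod]
    exact Finite.card_range_le _
  have h2 := sum_card h (by rw [Module.finrank_prod]; exact hX) hT hne SS
  refine le_trans ?_ (Nat.mul_le_mul_left _ h1)
  rw [← h2, Nat.card_sigma, Finset.sum_mul]
  refine Finset.sum_le_sum fun y _ => ?_
  have h3 : Nat.card (AA TS (y : V ≃ₗ[F] V) S) * Nat.card (AA TS (y : V ≃ₗ[F] V) S') *
      (Nat.card (X ≃ₗ[F] X) * Nat.card (X' ≃ₗ[F] X')) = Nat.card ({φ : Fr TS X // Ad (y : V ≃ₗ[F] V) S φ.map} ×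
        {φ : Fr TS X' // Ad (y : V ≃ₗ[F] V) S' φ.map}) := by
    rw [Nat.card_prod, card_AA hS, card_AA hS']
    ring
  rw [h3]
  refine Nat.card_le_card_of_injective (fun p => ⟨⟨p.1.1.map.coprod p.2.1.map, ?_, ?_⟩, ?_⟩) ?_
  · have hdis := (hd y y.2 _ ⟨p.1.1.ts, p.1.1.map, p.1.1.inj, rfl, p.1.2⟩ _
      ⟨p.2.1.ts, p.2.1.map, p.2.1.inj, rfl, p.2.2⟩).1
    rw [← LinearMap.ker_eq_bot, LinearMap.ker_coprod_of_disjoint_range _ _ hdis, LinearMap.ker_eq_bot.2 p.1.1.inj,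
      LinearMap.ker_eq_bot.2 p.2.1.inj, Submodule.prod_bot]
  · rw [LinearMap.range_coprod]
    exact (hd y y.2 _ ⟨p.1.1.ts, p.1.1.map, p.1.1.inj, rfl, p.1.2⟩ _
      ⟨p.2.1.ts, p.2.1.map, p.2.1.inj, rfl, p.2.2⟩).2
  · obtain ⟨m, hm, h4⟩ := p.1.2
    obtain ⟨m', hm', h5⟩ := p.2.2
    refine ⟨m.prodCongr m', ⟨(⟨m, hm⟩, ⟨m', hm'⟩), rfl⟩, fun x => ?_⟩
    rw [LinearMap.coprod_apply, map_add, h4, h5]
    rfl
  · rintro ⟨⟨φ, hφ⟩, ⟨φ', hφ'⟩⟩ ⟨⟨ψ, hψ⟩, ⟨ψ', hψ'⟩⟩ h4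
    have h5 : φ.map.coprod φ'.map = ψ.map.coprod ψ'.map := congrArg (fun a => a.1.map) h4
    have h6 : φ = ψ := Fr.ext' fun x => by
      have := LinearMap.congr_fun h5 (x, 0)
      simpa using this
    have h7 : φ' = ψ' := Fr.ext' fun x => by
      have := LinearMap.congr_fun h5 (0, x)
      simpa using this
    subst h6 h7
    rfl

/-! ### flags -/

/-- block triangular automorphisms -/
def tri (a : X ≃ₗ[F] X) (c : X' →ₗ[F] X) (b : X' ≃ₗ[F] X') : (X × X') ≃ₗ[F] (X × X') where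
  toFun p := (a p.1 + c p.2, b p.2)
  invFun p := (a.symm (p.1 - c (b.symm p.2)), b.symm p.2)
  map_add' p p' := by
    ext
    · simp only [Prod.fst_add, Prod.snd_add, map_add]
      abel
    · simp
  map_smul' k p := by
    ext
    · simp
    · simp
  left_inv p := by
    ext
    · simp
    · simp
  right_inv p := by
    ext
    · simp
    · simp

@[simp] theorem tri_apply (a : X ≃ₗ[F] X) (c : X' →ₗ[F] X) (b : X' ≃ₗ[F] X') (p : X × X') :
    tri a c b p = (a p.1 + c p.2, b p.2) := rfl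

theorem tri_mul (a a' : X ≃ₗ[F] X) (c c' : X' →ₗ[F] X) (b b' : X' ≃ₗ[F] X') :
    tri a c b * tri a' c' b' = tri (a * a') ((a : X →ₗ[F] X) ∘ₗ c' + c ∘ₗ (b' : X' →ₗ[F] X')) (b * b') := by
  ext p
  · show a (a' p.1 + c' p.2) + c (b' p.2) = a (a' p.1) + (a (c' p.2) + c (b' p.2))
    rw [map_add, add_assoc]
  · rfl

theorem tri_inv (a : X ≃ₗ[F] X) (c : X' →ₗ[F] X) (b : X' ≃ₗ[F] X') :
    (tri a c b)⁻¹ = tri a⁻¹ (-(((a⁻¹ : X ≃ₗ[F] X) : X →ₗ[F] X) ∘ₗ c ∘ₗ ((b⁻¹ : X' ≃ₗ[F] X') : X' →ₗ[F] X'))) b⁻¹ := by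
  rw [inv_eq_iff_mul_eq_one, tri_mul]
  ext p
  · show a (a⁻¹ p.1) + (a (-(a⁻¹ (c (b⁻¹ p.2)))) + c (b⁻¹ p.2)) = p.1
    have h1 : a (a⁻¹ (c (b⁻¹ p.2))) = c (b⁻¹ p.2) := a.apply_symm_apply _
    have h2 : a (a⁻¹ p.1) = p.1 := a.apply_symm_apply _
    rw [map_neg, h1, h2]
    simp
  · show b (b⁻¹ p.2) = p.2
    exact b.apply_symm_apply _

/-- block triangular automorphisms with given diagonal blocks -/
def TT (S : Set (X ≃ₗ[F] X)) (S' : Set (X' ≃ₗ[F] X')) : Set ((X × X') ≃ₗ[F] (X × X')) :=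
  {t | ∃ a ∈ S, ∃ c, ∃ b ∈ S', t = tri a c b}

theorem tri_conj {S : Set (X ≃ₗ[F] X)} (hS : Cj S) {S' : Set (X' ≃ₗ[F] X')} (hS' : Cj S') (a : X ≃ₗ[F] X)
    (c : X' →ₗ[F] X) (b : X' ≃ₗ[F] X') {m : (X × X') ≃ₗ[F] (X × X')} (hm : m ∈ TT S S') :
    (tri a c b)⁻¹ * m * tri a c b ∈ TT S S' := by
  obtain ⟨a', ha', c', b', hb', rfl⟩ := hm
  rw [tri_inv, tri_mul, tri_mul]
  exact ⟨_, hS _ ha' a, _, _, hS' _ hb' b, rfl⟩

theorem card_TT_le [Finite X] [Finite X'] (S : Set (X ≃ₗ[F] X)) (S' : Set (X' ≃ₗ[F] X')) :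
    Nat.card (TT S S') ≤ Nat.card S * Nat.card (X' →ₗ[F] X) * Nat.card S' := by
  have : Finite (X' →ₗ[F] X) := Finite.of_injective (fun φ : X' →ₗ[F] X => (φ : X' → X)) DFunLike.coe_injective
  rw [← Nat.card_prod, ← Nat.card_prod]
  refine Nat.card_le_card_of_surjective (fun p : (S × (X' →ₗ[F] X)) × S' =>
    (⟨tri p.1.1.1 p.1.2 p.2.1, p.1.1.1, p.1.1.2, p.1.2, p.2.1, p.2.2, rfl⟩ : TT S S')) ?_
  rintro ⟨t, a, ha, c, b, hb, rfl⟩
  exact ⟨((⟨a, ha⟩, c), ⟨b, hb⟩), rfl⟩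

/-- flags `A < B` with `y` acting on `A` as an element of `S`, on `B / A` as an element of `S'` -/
def BP (TS : Submodule F V → Prop) (y : V ≃ₗ[F] V) (S : Set (X ≃ₗ[F] X)) (S' : Set (X' ≃ₗ[F] X')) :
    Set (Submodule F V × Submodule F V) :=
  {p | TS p.2 ∧ ∃ Φ : (X × X') →ₗ[F] V, Function.Injective Φ ∧ LinearMap.range Φ = p.2 ∧
    LinearMap.range (Φ ∘ₗ LinearMap.inl F X X') = p.1 ∧ Ad y (TT S S') Φ}

theorem card_BP_le [Finite V] [Finite X] [Finite X'] {S : Set (X ≃ₗ[F] X)} (hS : Cj S) {S' : Set (X' ≃ₗ[F] X')}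
    (hS' : Cj S') (y : V ≃ₗ[F] V) :
    Nat.card (BP TS y S S') * (Nat.card (X ≃ₗ[F] X) * Nat.card (X' →ₗ[F] X) * Nat.card (X' ≃ₗ[F] X')) ≤
      Nat.card {Φ : Fr TS (X × X') // Ad y (TT S S') Φ.map} := by
  have : Finite (X' →ₗ[F] X) := Finite.of_injective (fun φ : X' →ₗ[F] X => (φ : X' → X)) DFunLike.coe_injective
  rw [← Nat.card_prod, ← Nat.card_prod, ← Nat.card_prod]
  refine Nat.card_le_card_of_injective (fun q : BP TS y S S' × (((X ≃ₗ[F] X) × (X' →ₗ[F] X)) × (X' ≃ₗ[F] X')) =>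
    (⟨Fr.comp ⟨q.1.2.2.choose, q.1.2.2.choose_spec.1, by
      rw [q.1.2.2.choose_spec.2.1]
      exact q.1.2.1⟩ (tri q.2.1.1 q.2.1.2 q.2.2),
        q.1.2.2.choose_spec.2.2.2.comp fun m hm => tri_conj hS hS' _ _ _ hm⟩ :
      {Φ : Fr TS (X × X') // Ad y (TT S S') Φ.map})) ?_
  rintro ⟨⟨⟨A, B⟩, hp⟩, ⟨⟨a, c⟩, b⟩⟩ ⟨⟨⟨A', B'⟩, hp'⟩, ⟨⟨a', c'⟩, b'⟩⟩ h
  have h1 : hp.2.choose ∘ₗ ((tri a c b : (X × X') ≃ₗ[F] (X × X')) : (X × X') →ₗ[F] (X × X')) =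
      hp'.2.choose ∘ₗ ((tri a' c' b' : (X × X') ≃ₗ[F] (X × X')) : (X × X') →ₗ[F] (X × X')) :=
    congrArg (fun q : {Φ : Fr TS (X × X') // Ad y (TT S S') Φ.map} => q.1.map) h
  have hinl : ∀ (Φ : (X × X') →ₗ[F] V) (a : X ≃ₗ[F] X) (c : X' →ₗ[F] X) (b : X' ≃ₗ[F] X'),
      LinearMap.range ((Φ ∘ₗ ((tri a c b : (X × X') ≃ₗ[F] (X × X')) : (X × X') →ₗ[F] (X × X'))) ∘ₗ
        LinearMap.inl F X X') = LinearMap.range (Φ ∘ₗ LinearMap.inl F X X') := by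
    intro Φ a c b
    ext v
    constructor
    · rintro ⟨x, rfl⟩
      exact ⟨a x, by simp⟩
    · rintro ⟨x, rfl⟩
      exact ⟨a.symm x, by simp⟩
  have hA : A = A' := by
    refine hp.2.choose_spec.2.2.1.symm.trans (Eq.trans ?_ hp'.2.choose_spec.2.2.1)
    have e1 := hinl hp.2.choose a c b
    have e2 := hinl hp'.2.choose a' c' b'
    rw [h1] at e1
    exact e1.symm.trans e2
  have hr : ∀ (Φ : (X × X') →ₗ[F] V) (a : X ≃ₗ[F] X) (c : X' →ₗ[F] X) (b : X' ≃ₗ[F] X'),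
      LinearMap.range (Φ ∘ₗ ((tri a c b : (X × X') ≃ₗ[F] (X × X')) : (X × X') →ₗ[F] (X × X'))) =
        LinearMap.range Φ := by
    intro Φ a c b
    rw [LinearMap.range_comp, LinearEquiv.range, Submodule.map_top]
  have hB : B = B' := by
    refine hp.2.choose_spec.2.1.symm.trans (Eq.trans ?_ hp'.2.choose_spec.2.1)
    have e1 := hr hp.2.choose a c b
    have e2 := hr hp'.2.choose a' c' b'
    rw [h1] at e1
    exact e1.symm.trans e2
  subst hA hB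
  have h2 : ∀ p, tri a c b p = tri a' c' b' p := fun p => hp.2.choose_spec.1 (LinearMap.congr_fun h1 p)
  have ha : a = a' := by
    ext x
    have := congrArg Prod.fst (h2 (x, 0))
    simpa using this
  have hb : b = b' := by
    ext x
    have := congrArg Prod.snd (h2 (0, x))
    simpa using this
  have hc : c = c' := by
    ext x
    have := congrArg Prod.fst (h2 (0, x))
    simpa using this
  subst ha hb hc
  rfl

instance finite_BP [Finite V] (y : V ≃ₗ[F] V) (S : Set (X ≃ₗ[F] X)) (S' : Set (X' ≃ₗ[F] X')) :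
    Finite (BP TS y S S') := by
  have : Finite (Submodule F V) := Finite.of_injective (fun A : Submodule F V => (A : Set V)) SetLike.coe_injective
  infer_instance

/-- flags on average -/
theorem sum_BP [Finite V] [Finite X] [Finite X'] (h : FT G TS k₀) (hX : finrank F X + finrank F X' ≤ k₀)
    (hT : ∀ g ∈ G, ∀ A, TS A → TS (A.map (g : V →ₗ[F] V))) (hne : Nonempty (Fr TS (X × X')))
    {S : Set (X ≃ₗ[F] X)} (hS : Cj S) {S' : Set (X' ≃ₗ[F] X')} (hS' : Cj S') [Fintype G] :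
    (∑ y : G, Nat.card (BP TS (y : V ≃ₗ[F] V) S S')) * (Nat.card (X ≃ₗ[F] X) * Nat.card (X' ≃ₗ[F] X')) ≤
      Nat.card G * (Nat.card S * Nat.card S') := by
  have : Finite (X' →ₗ[F] X) := Finite.of_injective (fun φ : X' →ₗ[F] X => (φ : X' → X)) DFunLike.coe_injective
  have h2 := sum_card h (by rw [Module.finrank_prod]; exact hX) hT hne (TT S S')
  have h3 : (∑ y : G, Nat.card (BP TS (y : V ≃ₗ[F] V) S S')) *
      (Nat.card (X ≃ₗ[F] X) * Nat.card (X' →ₗ[F] X) * Nat.card (X' ≃ₗ[F] X')) ≤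
      Nat.card G * (Nat.card S * Nat.card (X' →ₗ[F] X) * Nat.card S') := by
    refine le_trans ?_ (Nat.mul_le_mul_left _ (card_TT_le S S'))
    rw [← h2, Nat.card_sigma, Finset.sum_mul]
    exact Finset.sum_le_sum fun y _ => card_BP_le hS hS' _
  have h4 : 0 < Nat.card (X' →ₗ[F] X) := Nat.card_pos
  refine Nat.le_of_mul_le_mul_right ?_ h4
  calc _ = (∑ y : G, Nat.card (BP TS (y : V ≃ₗ[F] V) S S')) *
      (Nat.card (X ≃ₗ[F] X) * Nat.card (X' →ₗ[F] X) * Nat.card (X' ≃ₗ[F] X')) := by ring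
    _ ≤ _ := h3
    _ = _ := by ring

end

end Cfsg.Agent.H50.RG
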