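import Cfsg.Agent.H50.RG.Stat2

/-!
# S5714, layer L: good subspaces and frames (third part of `L01`)

* `PP e M` : irreducible automorphisms of `F ^ e` with large primitive part; `mem_AA_iff`;
* `II X` : irreducible automorphisms; `mem_BP` : the flags;
* `card_PP`, `card_II`, `card_GLX` : comparison with matrices.
-/

set_option autoImplicit false
set_option linter.unusedSectionVars false

namespace Cfsg.Agent.H50.RG

open Module Cfsg.Agent.H847.Bs

section

variable {F V : Type*} [Field F] [AddCommGroup V] [Module F V]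
variable {X : Type*} [AddCommGroup X] [Module F X]

/-- irreducible automorphisms -/
def II (F X : Type*) [Field F] [AddCommGroup X] [Module F X] : Set (X ≃ₗ[F] X) := {m | Irr m ⊤}

/-- irreducible automorphisms with large primitive part -/
def PP (F X : Type*) [Field F] [AddCommGroup X] [Module F X] (e M : ℕ) : Set (X ≃ₗ[F] X) :=
  {m | Irr m ⊤ ∧ ∃ k : ℕ, M ≤ k ∧ (∀ r : ℕ, r.Prime → r ∣ k → orderOf ((Nat.card F : ℕ) : ZMod r) = e) ∧ k ∣ orderOf m}

theorem irr_conj {m t : X ≃ₗ[F] X} (h : Irr m ⊤) : Irr (t⁻¹ * m * t) ⊤ := by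
  refine ⟨fun v _ => trivial, h.ne_bot, fun Y _ hY => ?_⟩
  have h1 := h.min (Y.map (t : X →ₗ[F] X)) le_top (by
    rintro _ ⟨v, hv, rfl⟩
    refine ⟨(t⁻¹ * m * t) v, hY v hv, ?_⟩
    exact t.apply_symm_apply _)
  rcases h1 with h1 | h1
  · left
    exact Submodule.map_eq_bot_iff.1 h1
  · right
    rw [eq_top_iff]
    intro x _
    have : t x ∈ Y.map (t : X →ₗ[F] X) := by rw [h1]; trivial
    obtain ⟨x', hx', e⟩ := this
    rwa [← t.injective e]

theorem cj_II : Cj (II F X) := fun _ hm _ => irr_conj hm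

theorem cj_PP (e M : ℕ) : Cj (PP F X e M) := by
  rintro m ⟨hm, k, hk, hr, hd⟩ t
  refine ⟨irr_conj hm, k, hk, hr, ?_⟩
  have : orderOf (t⁻¹ * m * t) = orderOf m := by
    have := orderOf_injective (MulAut.conj t⁻¹ : MulAut (X ≃ₗ[F] X)).toMonoidHom (MulEquiv.injective _) m
    simpa using this
  rw [this]
  exact hd

theorem pow_frame {y : V ≃ₗ[F] V} {φ : X →ₗ[F] V} {m : X ≃ₗ[F] X} (h : ∀ x, y (φ x) = φ (m x)) (k : ℕ) (x : X) :
    (y ^ k) (φ x) = φ ((m ^ k) x) := by
  induction k generalizing x with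
  | zero => rfl
  | succ k ih =>
    rw [pow_succ, pow_succ]
    show (y ^ k) (y (φ x)) = φ ((m ^ k) (m x))
    rw [h, ih]

theorem irr_frame {y : V ≃ₗ[F] V} {φ : X →ₗ[F] V} (hi : Function.Injective φ) {m : X ≃ₗ[F] X}
    (h : ∀ x, y (φ x) = φ (m x)) : Irr m ⊤ ↔ Irr y (LinearMap.range φ) := by
  constructor
  · intro hm
    refine ⟨?_, ?_, fun Y hY hYi => ?_⟩
    · rintro _ ⟨x, rfl⟩
      exact ⟨m x, (h x).symm⟩
    · intro h0
      apply hm.ne_bot
      rw [eq_bot_iff]
      intro x _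
      have : φ x ∈ LinearMap.range φ := ⟨x, rfl⟩
      rw [h0, Submodule.mem_bot] at this
      rw [Submodule.mem_bot]
      exact hi (this.trans (map_zero φ).symm)
    · rcases hm.min (Y.comap φ) le_top (fun x hx => by
        show φ (m x) ∈ Y
        rw [← h]
        exact hYi _ hx) with h1 | h1
      · left
        rw [eq_bot_iff]
        intro v hv
        obtain ⟨x, rfl⟩ := hY hv
        have : x ∈ Y.comap φ := hv
        rw [h1, Submodule.mem_bot] at this
        rw [this, map_zero]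
        exact zero_mem _
      · right
        refine le_antisymm hY ?_
        rintro _ ⟨x, rfl⟩
        have : x ∈ Y.comap φ := by rw [h1]; trivial
        exact this
  · intro hm
    refine ⟨fun _ _ => trivial, ?_, fun Y _ hYi => ?_⟩
    · intro h0
      apply hm.ne_bot
      rw [eq_bot_iff]
      rintro _ ⟨x, rfl⟩
      have : x ∈ (⊤ : Submodule F X) := trivial
      rw [h0, Submodule.mem_bot] at this
      rw [this, map_zero]
      exact zero_mem _
    · rcases hm.min (Y.map φ) (LinearMap.map_le_range) (by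
        rintro _ ⟨x, hx, rfl⟩
        rw [h]
        exact ⟨m x, hYi x hx, rfl⟩) with h1 | h1
      · left
        rw [eq_bot_iff]
        intro x hx
        have : φ x ∈ Y.map φ := ⟨x, hx, rfl⟩
        rw [h1, Submodule.mem_bot] at this
        rw [Submodule.mem_bot]
        exact hi (this.trans (map_zero φ).symm)
      · right
        rw [eq_top_iff]
        intro x _
        have : φ x ∈ Y.map φ := by rw [h1]; exact ⟨x, rfl⟩
        obtain ⟨x', hx', e⟩ := this
        rwa [← hi e]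

/-- the automorphism induced on a frame -/
theorem exists_m [FiniteDimensional F X] {y : V ≃ₗ[F] V} {φ : X →ₗ[F] V} (hi : Function.Injective φ)
    (h : Inv y (LinearMap.range φ)) : ∃ m : X ≃ₗ[F] X, ∀ x, y (φ x) = φ (m x) := by
  let ψ := LinearEquiv.ofInjective φ hi
  let f : X →ₗ[F] X := (ψ.symm : LinearMap.range φ →ₗ[F] X) ∘ₗ
    (((y : V →ₗ[F] V) ∘ₗ φ).codRestrict (LinearMap.range φ) fun x => h _ ⟨x, rfl⟩)
  have hf : ∀ x, φ (f x) = y (φ x) := by
    intro x
    have h1 : ψ (f x) = (((y : V →ₗ[F] V) ∘ₗ φ).codRestrict (LinearMap.range φ) fun x => h _ ⟨x, rfl⟩) x :=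
      ψ.apply_symm_apply _
    exact congrArg Subtype.val h1
  have hfi : Function.Injective f := by
    intro x x' hx
    apply hi
    apply y.injective
    rw [← hf, ← hf, hx]
  exact ⟨LinearEquiv.ofInjectiveEndo f hfi, fun x => (hf x).symm⟩

theorem mem_AA_iff [FiniteDimensional F V] [FiniteDimensional F X] {TS : Submodule F V → Prop} {e M : ℕ}
    (hX : finrank F X = e) {y : V ≃ₗ[F] V} {A : Submodule F V} :
    A ∈ AA TS y (PP F X e M) ↔ TS A ∧ finrank F A = e ∧ Irr y A ∧ BigOn e M y A := by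
  constructor
  · rintro ⟨hA, φ, hi, rfl, m, ⟨hm, k, hk, hr, hd⟩, h⟩
    refine ⟨hA, ?_, (irr_frame hi h).1 hm, k, hk, hr, fun j hj => ?_⟩
    · rw [LinearMap.finrank_range_of_inj hi, hX]
    · refine hd.trans (orderOf_dvd_of_pow_eq_one ?_)
      ext x
      apply hi
      rw [← pow_frame h]
      exact hj _ ⟨x, rfl⟩
  · rintro ⟨hA, hd, hirr, k, hk, hr, hkk⟩
    let θ : X ≃ₗ[F] A := LinearEquiv.ofFinrankEq X A (by rw [hX, hd])
    let φ : X →ₗ[F] V := A.subtype ∘ₗ (θ : X →ₗ[F] A)
    have hi : Function.Injective φ := A.injective_subtype.comp θ.injective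
    have hr' : LinearMap.range φ = A := by
      rw [LinearMap.range_comp, LinearEquiv.range, Submodule.map_top, Submodule.range_subtype]
    obtain ⟨m, hm⟩ := exists_m (y := y) hi (by rw [hr']; exact hirr.inv)
    refine ⟨hA, φ, hi, hr', m, ⟨?_, k, hk, hr, ?_⟩, hm⟩
    · rw [irr_frame hi hm, hr']
      exact hirr
    · refine hkk _ fun a ha => ?_
      rw [← hr'] at ha
      obtain ⟨x, rfl⟩ := ha
      rw [pow_frame hm, pow_orderOf_eq_one]
      rfl

/-- flags -/
theorem mem_BP [FiniteDimensional F V] [FiniteDimensional F X] {X' : Type*} [AddCommGroup X'] [Module F X']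
    [FiniteDimensional F X'] {TS : Submodule F V → Prop} {y : V ≃ₗ[F] V} {S : Set (X ≃ₗ[F] X)} {A B : Submodule F V}
    (hA : A ∈ AA TS y S) (hB : TS B) (hy : Inv y B) (hAB : A < B)
    (hmin : ∀ C, Inv y C → A ≤ C → C ≤ B → C = A ∨ C = B) (hd : finrank F B = finrank F X + finrank F X') :
    (A, B) ∈ BP TS y S (II F X') := by
  obtain ⟨hA, φ, hi, hr, a₀, ha₀, hφ⟩ := hA
  have hdA : finrank F A = finrank F X := by rw [← hr, LinearMap.finrank_range_of_inj hi]
  -- a complement of `A` in `B`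
  obtain ⟨A', hA'1, hA'2⟩ : ∃ A' : Submodule F V, Disjoint A A' ∧ A ⊔ A' = B := by
    obtain ⟨C, hC⟩ := A.exists_isCompl
    refine ⟨C ⊓ B, hC.disjoint.mono_right inf_le_left, ?_⟩
    have h1 : A ⊔ C ⊓ B = (A ⊔ C) ⊓ B := (sup_inf_assoc_of_le C hAB.le).symm
    rw [h1, hC.sup_eq_top, top_inf_eq]
  have hdA' : finrank F A' = finrank F X' := by
    have h1 := Submodule.finrank_sup_add_finrank_inf_eq A A'
    rw [hA'2, hA'1.eq_bot, finrank_bot, add_zero, hd, hdA] at h1
    omega
  let θ : X' ≃ₗ[F] A' := LinearEquiv.ofFinrankEq X' A' hdA'.symm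
  let ψ : X' →ₗ[F] V := A'.subtype ∘ₗ (θ : X' →ₗ[F] A')
  have hψi : Function.Injective ψ := A'.injective_subtype.comp θ.injective
  have hψr : LinearMap.range ψ = A' := by
    rw [LinearMap.range_comp, LinearEquiv.range, Submodule.map_top, Submodule.range_subtype]
  let Φ : (X × X') →ₗ[F] V := φ.coprod ψ
  have hΦi : Function.Injective Φ := by
    rw [← LinearMap.ker_eq_bot]
    show LinearMap.ker (φ.coprod ψ) = ⊥
    rw [LinearMap.ker_coprod_of_disjoint_range _ _ (by rw [hr, hψr]; exact hA'1), LinearMap.ker_eq_bot.2 hi,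
      LinearMap.ker_eq_bot.2 hψi, Submodule.prod_bot]
  have hΦr : LinearMap.range Φ = B := by
    show LinearMap.range (φ.coprod ψ) = B
    rw [LinearMap.range_coprod, hr, hψr, hA'2]
  have hΦ1 : ∀ x, Φ (x, 0) = φ x := fun x => by simp [Φ]
  have hΦA : LinearMap.range (Φ ∘ₗ LinearMap.inl F X X') = A := by
    rw [← hr]
    congr 1
    ext x
    exact hΦ1 x
  obtain ⟨m, hm⟩ := exists_m (y := y) hΦi (by rw [hΦr]; exact hy)
  -- the blocks of `m`
  have hm1 : ∀ x, m (x, 0) = (a₀ x, 0) := by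
    intro x
    apply hΦi
    rw [← hm, hΦ1, hΦ1, hφ]
  let b : X' →ₗ[F] X' := LinearMap.snd F X X' ∘ₗ (m : (X × X') →ₗ[F] (X × X')) ∘ₗ LinearMap.inr F X X'
  let c : X' →ₗ[F] X := LinearMap.fst F X X' ∘ₗ (m : (X × X') →ₗ[F] (X × X')) ∘ₗ LinearMap.inr F X X'
  have hm2 : ∀ p : X × X', m p = (a₀ p.1 + c p.2, b p.2) := by
    intro p
    have h1 : m p = m (p.1, 0) + m (0, p.2) := by
      rw [← map_add]
      congr 1
      ext <;> simp
    rw [h1, hm1]
    ext
    · rfl
    · show (0 : X') + b p.2 = b p.2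
      rw [zero_add]
  have hbs : Function.Surjective b := by
    intro x
    obtain ⟨p, hp⟩ := m.surjective (0, x)
    refine ⟨p.2, ?_⟩
    rw [hm2] at hp
    exact congrArg Prod.snd hp
  let b' : X' ≃ₗ[F] X' := LinearEquiv.ofBijective b ⟨LinearMap.injective_iff_surjective.2 hbs, hbs⟩
  have hmt : m = tri a₀ c b' := by
    ext p
    · rw [hm2]; rfl
    · rw [hm2]; rfl
  refine ⟨hB, Φ, hΦi, hΦr, hΦA, m, ⟨a₀, ha₀, c, b', ?_, hmt⟩, hm⟩
  -- irreducibility
  refine ⟨fun _ _ => trivial, ?_, fun Y _ hY => ?_⟩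
  · intro h0
    have h1 : finrank F X' = 0 := by
      rw [← finrank_top F X', h0, finrank_bot]
    have h2 : finrank F A < finrank F B := Submodule.finrank_lt_finrank_of_lt hAB
    omega
  · let C : Submodule F V := (Submodule.prod ⊤ Y).map Φ
    have hC1 : Inv y C := by
      rintro _ ⟨p, hp, rfl⟩
      rw [hm, hm2]
      exact ⟨(a₀ p.1 + c p.2, b' p.2), ⟨trivial, hY _ hp.2⟩, rfl⟩
    have hC2 : A ≤ C := by
      rw [← hr]
      rintro _ ⟨x, rfl⟩
      exact ⟨(x, 0), ⟨trivial, zero_mem _⟩, hΦ1 x⟩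
    have hC3 : C ≤ B := by
      rw [← hΦr]
      exact LinearMap.map_le_range
    rcases hmin C hC1 hC2 hC3 with h1 | h1
    · left
      rw [eq_bot_iff]
      intro x hx
      have h2 : Φ (0, x) ∈ C := ⟨(0, x), ⟨trivial, hx⟩, rfl⟩
      rw [h1, ← hr] at h2
      obtain ⟨x', h3⟩ := h2
      rw [← hΦ1] at h3
      have := congrArg Prod.snd (hΦi h3)
      exact this.symm
    · right
      rw [eq_top_iff]
      intro x _
      have h2 : Φ (0, x) ∈ C := by
        rw [h1, ← hΦr]
        exact ⟨_, rfl⟩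
      obtain ⟨p, hp, h3⟩ := h2
      have := congrArg Prod.snd (hΦi h3)
      have h4 : p.2 = x := this
      rw [← h4]
      exact hp.2

/-- existence of frames -/
theorem exists_fr [FiniteDimensional F V] [FiniteDimensional F X] {TS : Submodule F V → Prop} {k₀ : ℕ}
    (hh : ∀ A B, A ≤ B → TS B → TS A) (h : ∃ A, TS A ∧ finrank F A = k₀) (hX : finrank F X ≤ k₀) :
    Nonempty (Fr TS X) := by
  obtain ⟨A, hA, hd⟩ := h
  let b := finBasis F A
  let c := finBasis F X
  have hle : finrank F X ≤ finrank F A := by omega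
  let f : X →ₗ[F] A := c.constr F fun i => b (Fin.castLE hle i)
  have hf : Function.Injective f := by
    rw [← LinearMap.ker_eq_bot, eq_bot_iff]
    intro x hx
    rw [LinearMap.mem_ker] at hx
    have h1 : f x = ∑ i, c.equivFun x i • b (Fin.castLE hle i) := c.constr_apply_fintype F _ x
    have h2 : LinearIndependent F fun i : Fin (finrank F X) => b (Fin.castLE hle i) :=
      b.linearIndependent.comp _ (Fin.castLE_injective hle)
    rw [h1] at hx
    have h3 := Fintype.linearIndependent_iff.1 h2 _ hx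
    rw [Submodule.mem_bot]
    have : c.equivFun x = 0 := funext h3
    exact c.equivFun.map_eq_zero_iff.1 this
  refine ⟨⟨A.subtype ∘ₗ f, A.injective_subtype.comp hf, hh _ _ ?_ hA⟩⟩
  rintro _ ⟨x, rfl⟩
  exact (f x).2

end

/-! ### matrices -/

section

variable (F : Type*) [Field F]

/-- matrices and automorphisms -/
noncomputable def mE (d : ℕ) : GL (Fin d) F ≃* ((Fin d → F) ≃ₗ[F] (Fin d → F)) :=
  Matrix.GeneralLinearGroup.toLin.trans (LinearMap.GeneralLinearGroup.generalLinearEquiv F (Fin d → F))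

theorem mE_apply {d : ℕ} (g : GL (Fin d) F) (v : Fin d → F) :
    mE F d g v = (g : Matrix (Fin d) (Fin d) F).mulVec v := rfl

theorem irrM_iff {d : ℕ} (g : GL (Fin d) F) : IrrM F g ↔ Irr (mE F d g) ⊤ := by
  constructor
  · rintro ⟨h1, h2⟩
    refine ⟨fun _ _ => trivial, ?_, fun Y _ hY => h2 Y hY⟩
    intro h0
    have h3 : finrank F (Fin d → F) = 0 := by rw [← finrank_top, h0, finrank_bot]
    rw [Module.finrank_fintype_fun_eq_card, Fintype.card_fin] at h3
    omega
  · intro h
    refine ⟨?_, fun Y hY => h.min Y le_top hY⟩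
    by_contra hd
    apply h.ne_bot
    have : d = 0 := by omega
    subst this
    exact Subsingleton.elim _ _

theorem card_II (d : ℕ) : Nat.card {g : GL (Fin d) F // IrrM F g} = Nat.card (II F (Fin d → F)) :=
  Nat.card_congr ((mE F d).toEquiv.subtypeEquiv fun g => irrM_iff F g)

theorem card_PP (d M : ℕ) : Nat.card {g : GL (Fin d) F // IrrM F g ∧ BigM F d M g} = Nat.card (PP F (Fin d → F) d M) :=
  Nat.card_congr ((mE F d).toEquiv.subtypeEquiv fun g => by
    have h : orderOf (mE F d g) = orderOf g := orderOf_injective (mE F d).toMonoidHom (mE F d).injective g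
    refine and_congr (irrM_iff F g) ?_
    show (∃ k, _) ↔ ∃ k, _
    have h' : orderOf ((mE F d).toEquiv g) = orderOf g := h
    rw [h'])

theorem card_GLX (d : ℕ) : Nat.card (GL (Fin d) F) = Nat.card ((Fin d → F) ≃ₗ[F] (Fin d → F)) :=
  Nat.card_congr (mE F d).toEquiv

end

end Cfsg.Agent.H50.RG
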